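import Cfsg.Agent.Lib.H1.AltS
import Cfsg.Agent.Lib.H15.TWPrim

/-!
The action on a suborbit as a homomorphism to a symmetric group.
-/

set_option autoImplicit false

open Equiv Subgroup MulAction

namespace H1.AltSub

theorem hom_data {G Ω : Type*} [Group G] [Finite G] [MulAction G Ω] [Finite Ω] (a b : Ω) {d : ℕ}
    (hd : Nat.card (orbit (stabilizer G a) b) = d) :
    ∃ (φ : stabilizer G a →* Perm (Fin d)) (p : Fin d),
      φ.ker = (H15.TW.coreIn (stabilizer G a) (stabilizer G a ⊓ stabilizer G b)).subgroupOf (stabilizer G a) ∧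
      (∀ x (hx : x ∈ stabilizer G a), x ∈ stabilizer G a ⊓ stabilizer G b ↔ φ ⟨x, hx⟩ p = p) ∧
      φ.range.index = (toPermHom (stabilizer G a) (orbit (stabilizer G a) b)).range.index ∧
      (∀ m, 5 ≤ m → d = m + 1 → (toPermHom (stabilizer G a) (orbit (stabilizer G a) b)).range.index ≤ 2 →
        Cfsg.fittingSubgroup ↥(((stabilizer G b).subgroupOf (stabilizer G a)).map
          (toPermHom (stabilizer G a) (orbit (stabilizer G a) b))) = ⊥) := by
  let e : orbit (stabilizer G a) b ≃ Fin d := Finite.equivFinOfCardEq hd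
  set τ := toPermHom (stabilizer G a) (orbit (stabilizer G a) b) with hτ
  let E := e.permCongrHom.toMonoidHom
  have hEinj : Function.Injective E := e.permCongrHom.injective
  let b' : orbit (stabilizer G a) b := ⟨b, mem_orbit_self b⟩
  have hEb : ∀ s : Perm (orbit (stabilizer G a) b), E s (e b') = e b' ↔ s b' = b' := by
    intro s
    change e.permCongr s (e b') = e b' ↔ _
    rw [Equiv.permCongr_apply, Equiv.symm_apply_apply, e.injective.eq_iff]
  have hτb : ∀ x (hx : x ∈ stabilizer G a), τ ⟨x, hx⟩ b' = b' ↔ x ∈ stabilizer G a ⊓ stabilizer G b := by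
    intro x hx
    constructor
    · intro h
      exact ⟨hx, congrArg Subtype.val h⟩
    · intro h
      exact Subtype.ext h.2
  have hidx : ∀ R : Subgroup (Perm (orbit (stabilizer G a) b)), (R.map E).index = R.index := fun R =>
    Subgroup.index_map_of_bijective e.permCongrHom.bijective R
  refine ⟨E.comp τ, e b', ?_, ?_, ?_, ?_⟩
  · ext ⟨x, hx⟩
    rw [Subgroup.mem_subgroupOf, H15.TW.mem_first, MonoidHom.mem_ker, MonoidHom.comp_apply,
      map_eq_one_iff _ hEinj]
    constructor
    · intro h
      refine ⟨hx, fun c hc => ?_⟩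
      rw [← H15.TW.orbit_eq] at hc
      have h1 := congrArg (fun s : Perm (orbit (stabilizer G a) b) => s ⟨c, hc⟩) h
      exact congrArg Subtype.val h1
    · rintro ⟨-, h⟩
      apply Equiv.ext
      rintro ⟨c, hc⟩
      apply Subtype.ext
      exact h c (by rw [← H15.TW.orbit_eq]; exact hc)
  · intro x hx
    rw [MonoidHom.comp_apply, hEb, hτb]
  · rw [MonoidHom.range_comp, hidx]
  · intro m hm hdm hind
    set I := ((stabilizer G b).subgroupOf (stabilizer G a)).map τ with hI
    have hIR : I ≤ τ.range := by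
      rw [MonoidHom.range_eq_map]
      exact Subgroup.map_mono le_top
    have hrange : (E.comp τ.range.subtype).range = τ.range.map E := by
      rw [MonoidHom.range_comp, Subgroup.range_subtype]
    obtain ⟨f', hf'k, hf'⟩ := restrict (K := ⊥) hIR hdm (E.comp τ.range.subtype) (by
        ext ⟨x, hx⟩
        rw [MonoidHom.mem_ker, MonoidHom.comp_apply, map_eq_one_iff _ hEinj, Subgroup.mem_subgroupOf,
          Subgroup.mem_bot]
        rfl) (by
        apply Equiv.Perm.alternatingGroup_le_of_index_le_two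
        rw [hrange, hidx]
        exact hind) (e b') (by
        rintro x ⟨⟨y, hy⟩, rfl⟩
        have hy1 : (E.comp τ.range.subtype) ⟨τ ⟨y, hy⟩, ⟨y, hy⟩, rfl⟩ (e b') = e b' ↔ τ ⟨y, hy⟩ b' = b' := hEb _
        rw [hy1]
        constructor
        · rintro ⟨⟨z, hz⟩, hz1, hz2⟩
          rw [← hz2, hτb]
          exact ⟨hz, hz1⟩
        · intro h
          rw [hτb] at h
          exact ⟨⟨y, hy⟩, h.2, rfl⟩)
    apply fitting_eq_bot hm f' hf'
    rw [← MonoidHom.ker_eq_bot_iff, hf'k, Subgroup.bot_subgroupOf]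

end H1.AltSub
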