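import Cfsg.Agent.Lib.H1.AltM

/-!
Identification of the point stabilizer.
-/

set_option autoImplicit false

open Equiv Subgroup

namespace H1.AltSub

/-- subgroups of `S_n × S_m` that contain `A_n × A_m` -/
theorem sub_prod {n m : ℕ} (R : Subgroup (Perm (Fin n) × Perm (Fin m)))
    (h1 : ∀ s ∈ alternatingGroup (Fin n), (s, (1 : Perm (Fin m))) ∈ R)
    (h2 : ∀ t ∈ alternatingGroup (Fin m), ((1 : Perm (Fin n)), t) ∈ R)
    (h3 : R.map (MonoidHom.fst _ _) = alternatingGroup (Fin n) → ∀ r ∈ R, Equiv.Perm.sign r.2 = 1)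
    (h4 : R.map (MonoidHom.fst _ _) = alternatingGroup (Fin n) ∨ R.map (MonoidHom.fst _ _) = ⊤)
    (hn2 : alternatingGroup (Fin n) ≠ ⊤) :
    (R.map (MonoidHom.fst _ _) = alternatingGroup (Fin n) ∧
      Nonempty (R ≃* alternatingGroup (Fin n) × alternatingGroup (Fin m))) ∨
    (R.map (MonoidHom.fst _ _) = ⊤ ∧ (Nonempty (R ≃* Perm (Fin n) × Perm (Fin m)) ∨
      Nonempty (R ≃* Perm (Fin n) × alternatingGroup (Fin m)) ∨
      Nonempty (R ≃* ((Equiv.Perm.sign.comp (MonoidHom.fst (Perm (Fin n)) (Perm (Fin m)))) *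
         (Equiv.Perm.sign.comp (MonoidHom.snd (Perm (Fin n)) (Perm (Fin m))))).ker))) := by
  set P : ℤˣ → ℤˣ → Prop := fun e1 e2 => ∃ r ∈ R, Equiv.Perm.sign r.1 = e1 ∧ Equiv.Perm.sign r.2 = e2 with hP
  have hmul : ∀ a b c d, P a b → P c d → P (a * c) (b * d) := by
    rintro a b c d ⟨r, hr, rfl, rfl⟩ ⟨r', hr', rfl, rfl⟩
    exact ⟨r * r', R.mul_mem hr hr', by simp, by simp⟩
  have hmem : ∀ r, r ∈ R ↔ P (Equiv.Perm.sign r.1) (Equiv.Perm.sign r.2) := by
    intro r
    refine ⟨fun hr => ⟨r, hr, rfl, rfl⟩, ?_⟩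
    rintro ⟨r', hr', e1, e2⟩
    have a1 : r.1 * r'.1⁻¹ ∈ alternatingGroup (Fin n) := by
      rw [Equiv.Perm.mem_alternatingGroup, map_mul, map_inv, e1, mul_inv_cancel]
    have a2 : r.2 * r'.2⁻¹ ∈ alternatingGroup (Fin m) := by
      rw [Equiv.Perm.mem_alternatingGroup, map_mul, map_inv, e2, mul_inv_cancel]
    have a3 := R.mul_mem (R.mul_mem (h1 _ a1) (h2 _ a2)) hr'
    have a4 : (r.1 * r'.1⁻¹, (1 : Perm (Fin m))) * ((1 : Perm (Fin n)), r.2 * r'.2⁻¹) * r' = r := by
      apply Prod.ext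
      · simp
      · simp
    rwa [a4] at a3
  have hP1 : P 1 1 := ⟨1, R.one_mem, by simp, by simp⟩
  rcases h4 with h4 | h4
  · left
    refine ⟨h4, ?_⟩
    have h5 : R = (alternatingGroup (Fin n)).prod (alternatingGroup (Fin m)) := by
      ext r
      rw [Subgroup.mem_prod, Equiv.Perm.mem_alternatingGroup, Equiv.Perm.mem_alternatingGroup]
      constructor
      · intro hr
        refine ⟨?_, h3 h4 r hr⟩
        have h6 : r.1 ∈ R.map (MonoidHom.fst _ _) := ⟨r, hr, rfl⟩
        rw [h4] at h6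
        exact Equiv.Perm.mem_alternatingGroup.1 h6
      · rintro ⟨h6, h7⟩
        rw [hmem, h6, h7]
        exact hP1
    rw [h5]
    exact ⟨Subgroup.prodEquiv _ _⟩
  · right
    refine ⟨h4, ?_⟩
    have hP0 : ∀ e1, ∃ e2, P e1 e2 := by
      intro e1
      by_cases hs : ∃ s : Perm (Fin n), Equiv.Perm.sign s = e1
      · obtain ⟨s, hs⟩ := hs
        have h6 : s ∈ R.map (MonoidHom.fst _ _) := by rw [h4]; exact Subgroup.mem_top s
        obtain ⟨r, hr, hrs⟩ := h6
        refine ⟨Equiv.Perm.sign r.2, r, hr, ?_, rfl⟩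
        rw [← hs, ← hrs]
        rfl
      · exfalso
        apply hn2
        rw [eq_top_iff]
        intro s _
        rw [Equiv.Perm.mem_alternatingGroup]
        rcases Int.units_eq_one_or e1 with h | h
        · exact absurd ⟨1, by rw [map_one, h]⟩ hs
        · rcases Int.units_eq_one_or (Equiv.Perm.sign s) with h' | h'
          · exact h'
          · exact absurd ⟨s, by rw [h', h]⟩ hs
    by_cases hB1 : ∀ r ∈ R, Equiv.Perm.sign r.2 = 1
    · right; left
      have hPm : P (-1) 1 := by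
        obtain ⟨e2, r, hr, he1, he2⟩ := hP0 (-1)
        exact ⟨r, hr, he1, hB1 r hr⟩
      have h5 : R = (⊤ : Subgroup (Perm (Fin n))).prod (alternatingGroup (Fin m)) := by
        ext r
        rw [Subgroup.mem_prod, Equiv.Perm.mem_alternatingGroup]
        constructor
        · intro hr
          exact ⟨Subgroup.mem_top _, hB1 r hr⟩
        · rintro ⟨-, h7⟩
          rw [hmem, h7]
          rcases Int.units_eq_one_or (Equiv.Perm.sign r.1) with h' | h'
          · rw [h']; exact hP1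
          · rw [h']; exact hPm
      rw [h5]
      exact ⟨(Subgroup.prodEquiv _ _).trans (MulEquiv.prodCongr Subgroup.topEquiv (MulEquiv.refl _))⟩
    · push Not at hB1
      obtain ⟨r0, hr0, hr0'⟩ := hB1
      have hr0s : Equiv.Perm.sign r0.2 = -1 := (Int.units_eq_one_or _).resolve_left hr0'
      by_cases hB2 : ∀ r ∈ R, Equiv.Perm.sign r.1 * Equiv.Perm.sign r.2 = 1
      · right; right
        have h5 : R = ((Equiv.Perm.sign.comp (MonoidHom.fst (Perm (Fin n)) (Perm (Fin m)))) *
         (Equiv.Perm.sign.comp (MonoidHom.snd (Perm (Fin n)) (Perm (Fin m))))).ker := by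
          ext r
          rw [MonoidHom.mem_ker]
          constructor
          · intro hr
            exact hB2 r hr
          · intro hr
            have hr' : Equiv.Perm.sign r.1 * Equiv.Perm.sign r.2 = 1 := hr
            have hPmm : P (-1) (-1) := by
              refine ⟨r0, hr0, ?_, hr0s⟩
              have h6 := hB2 r0 hr0
              rw [hr0s] at h6
              rcases Int.units_eq_one_or (Equiv.Perm.sign r0.1) with h' | h'
              · rw [h'] at h6
                exact absurd h6 (by decide)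
              · exact h'
            rw [hmem]
            rcases Int.units_eq_one_or (Equiv.Perm.sign r.1) with h' | h' <;>
              rcases Int.units_eq_one_or (Equiv.Perm.sign r.2) with h'' | h''
            · rw [h', h'']; exact hP1
            · rw [h', h''] at hr'; exact absurd hr' (by decide)
            · rw [h', h''] at hr'; exact absurd hr' (by decide)
            · rw [h', h'']; exact hPmm
        rw [h5]
        exact ⟨MulEquiv.refl _⟩
      · left
        push Not at hB2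
        obtain ⟨r1, hr1, hr1'⟩ := hB2
        have hQ : P 1 (-1) ∨ P (-1) 1 := by
          rcases Int.units_eq_one_or (Equiv.Perm.sign r1.1) with h' | h' <;>
            rcases Int.units_eq_one_or (Equiv.Perm.sign r1.2) with h'' | h''
          · rw [h', h''] at hr1'; exact absurd rfl hr1'
          · left; exact ⟨r1, hr1, h', h''⟩
          · right; exact ⟨r1, hr1, h', h''⟩
          · rw [h', h''] at hr1'; exact absurd (by decide) hr1'
        have hQ2 : P 1 (-1) ∧ P (-1) 1 := by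
          rcases hQ with h | h
          · refine ⟨h, ?_⟩
            obtain ⟨e2, he⟩ := hP0 (-1)
            rcases Int.units_eq_one_or e2 with h' | h'
            · rwa [h'] at he
            · rw [h'] at he
              have := hmul _ _ _ _ he h
              simpa using this
          · refine ⟨?_, h⟩
            have he : P (Equiv.Perm.sign r0.1) (-1) := ⟨r0, hr0, rfl, hr0s⟩
            rcases Int.units_eq_one_or (Equiv.Perm.sign r0.1) with h' | h'
            · rwa [h'] at he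
            · rw [h'] at he
              have := hmul _ _ _ _ he h
              simpa using this
        have hPmm : P (-1) (-1) := by
          have := hmul _ _ _ _ hQ2.1 hQ2.2
          simpa using this
        have h5 : R = ⊤ := by
          rw [eq_top_iff]
          intro r _
          rw [hmem]
          rcases Int.units_eq_one_or (Equiv.Perm.sign r.1) with h' | h' <;>
            rcases Int.units_eq_one_or (Equiv.Perm.sign r.2) with h'' | h''
          · rw [h', h'']; exact hP1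
          · rw [h', h'']; exact hQ2.1
          · rw [h', h'']; exact hQ2.2
          · rw [h', h'']; exact hPmm
        rw [h5]
        exact ⟨Subgroup.topEquiv⟩

variable {G : Type*} [Group G] [Finite G]

theorem ident {A B K L : Subgroup G} {h : G} (hAB : ∀ x, x ∈ A ↔ h * x * h⁻¹ ∈ B)
    (hKX : K ≤ A ⊓ B) (hLX : L ≤ A ⊓ B)
    (hAK : A ≤ Subgroup.normalizer (K : Set G)) (hBL : B ≤ Subgroup.normalizer (L : Set G))
    (hmaxA : ∀ Y : Subgroup G, A ⊓ B ≤ Y → Y ≤ A → Y = A ⊓ B ∨ Y = A)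
    (hcoreA : ∀ N : Subgroup G, N ≤ A ⊓ B → A ≤ Subgroup.normalizer (N : Set G) → N ≤ K)
    {n m : ℕ} (hm : 5 ≤ m) (hnm : n = m + 1)
    {φ : A →* Perm (Fin n)} (hφK : φ.ker = K.subgroupOf A) (hφ : alternatingGroup (Fin n) ≤ φ.range)
    {ψ : B →* Perm (Fin n)} (hψL : ψ.ker = L.subgroupOf B) (hψ : alternatingGroup (Fin n) ≤ ψ.range)
    {ψ' : (A ⊓ B : Subgroup G) →* Perm (Fin m)} (hψ'L : ψ'.ker = L.subgroupOf (A ⊓ B))
    (hψ' : alternatingGroup (Fin m) ≤ ψ'.range) (hKL : ¬ K ≤ L)
    (hM : K ⊓ L = ⊥) (hcard : Nat.card A = n * Nat.card (A ⊓ B : Subgroup G)) :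
    (φ.range = alternatingGroup (Fin n) ∧
      Nonempty (A ≃* alternatingGroup (Fin n) × alternatingGroup (Fin m))) ∨
    (φ.range = ⊤ ∧ (Nonempty (A ≃* Perm (Fin n) × Perm (Fin m)) ∨
      Nonempty (A ≃* Perm (Fin n) × alternatingGroup (Fin m)) ∨
      Nonempty (A ≃* ((Equiv.Perm.sign.comp (MonoidHom.fst (Perm (Fin n)) (Perm (Fin m)))) *
         (Equiv.Perm.sign.comp (MonoidHom.snd (Perm (Fin n)) (Perm (Fin m))))).ker))) := by
  have hn : 5 ≤ n := by omega
  have hm' : 5 ≤ Nat.card (Fin m) := by rw [Nat.card_eq_fintype_card, Fintype.card_fin]; exact hm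
  have hn' : 5 ≤ Nat.card (Fin n) := by rw [Nat.card_eq_fintype_card, Fintype.card_fin]; exact hn
  have hXL : A ⊓ B ≤ Subgroup.normalizer (L : Set G) := inf_le_right.trans hBL
  have hXK : A ⊓ B ≤ Subgroup.normalizer (K : Set G) := inf_le_left.trans hAK
  have cA : 2 * Nat.card (alternatingGroup (Fin n)) = n.factorial := by
    have : Nontrivial (Fin n) := Fin.nontrivial_iff_two_le.2 (by omega)
    rw [two_mul_nat_card_alternatingGroup, Nat.card_perm, Nat.card_eq_fintype_card, Fintype.card_fin]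
  have cP : Nat.card (Perm (Fin m)) = m.factorial := by
    rw [Nat.card_perm, Nat.card_eq_fintype_card, Fintype.card_fin]
  have cnm : n.factorial = n * m.factorial := by rw [hnm, Nat.factorial_succ]
  have hKim : alternatingGroup (Fin m) ≤ im ψ' K :=
    (im_cases hm hψ'L (by rw [im_self]; exact hψ') hKX hXK).resolve_left hKL
  -- K^h ≤ L
  have cK : Nat.card (im ψ' K) = Nat.card K := by
    have := card_im_mul (f := ψ') hKX hψ'L
    rwa [hM, Subgroup.card_bot, mul_one] at this
  have hKh : ∀ x ∈ K, h * x * h⁻¹ ∈ L := by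
    set Kh : Subgroup G := K.map (MulAut.conj h).toMonoidHom with hKhdef
    have h1 : Kh ≤ B := by
      rintro _ ⟨x, hx, rfl⟩
      exact (hAB x).1 (hKX hx).1
    have h2 : B ≤ Subgroup.normalizer (Kh : Set G) := by
      apply le_norm
      rintro b hb _ ⟨x, hx, rfl⟩
      refine ⟨(h⁻¹ * b * h) * x * (h⁻¹ * b * h)⁻¹, ?_, ?_⟩
      · apply norm_conj hAK _ hx
        rw [hAB]
        have h2 : h * (h⁻¹ * b * h) * h⁻¹ = b := by group
        rwa [h2]
      · change h * ((h⁻¹ * b * h) * x * (h⁻¹ * b * h)⁻¹) * h⁻¹ = b * (h * x * h⁻¹) * b⁻¹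
        group
    rcases im_cases hn hψL (by rw [im_self]; exact hψ) h1 h2 with h3 | h3
    · intro x hx
      exact h3 ⟨x, hx, rfl⟩
    · exfalso
      have h4 : Nat.card (alternatingGroup (Fin n)) ≤ Nat.card (im ψ Kh) :=
        Nat.le_of_dvd Nat.card_pos (Subgroup.card_dvd_of_le h3)
      have h5 := card_im_mul (f := ψ) h1 hψL
      have h6 : Nat.card (im ψ Kh) ≤ Nat.card Kh := by
        rw [← h5]
        exact Nat.le_mul_of_pos_right _ Nat.card_pos
      have h7 : Nat.card Kh = Nat.card K :=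
        (Nat.card_congr (K.equivMapOfInjective _ (MulAut.conj h).injective).toEquiv).symm
      have h8 : Nat.card (im ψ' K) ≤ m.factorial := by
        rw [← cP]
        exact Nat.card_le_card_of_injective _ Subtype.val_injective
      have h9 : Nat.card (alternatingGroup (Fin n)) ≤ m.factorial := by
        rw [cK] at h8
        rw [h7] at h6
        exact h4.trans (h6.trans h8)
      have h10 : 0 < m.factorial := Nat.factorial_pos m
      have h11 : n * m.factorial ≤ 2 * m.factorial := by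
        rw [← cnm, ← cA]
        omega
      have h12 := Nat.le_of_mul_le_mul_right h11 h10
      omega
  have cKL : Nat.card K ≤ Nat.card L := by
    have h1 : K.map (MulAut.conj h).toMonoidHom ≤ L := by
      rintro _ ⟨x, hx, rfl⟩
      exact hKh x hx
    rw [Nat.card_congr (K.equivMapOfInjective (MulAut.conj h).toMonoidHom (MulAut.conj h).injective).toEquiv]
    exact Nat.le_of_dvd Nat.card_pos (Subgroup.card_dvd_of_le h1)
  have hLne : L ≠ ⊥ := by
    intro hc
    apply hKL
    intro x hx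
    have h1 := hKh x hx
    rw [hc, Subgroup.mem_bot] at h1
    have h2 : x = h⁻¹ * (h * x * h⁻¹) * h := by group
    rw [h2, h1]
    simp [L.one_mem]
  -- C
  set C : Subgroup G := A ⊓ Subgroup.centralizer (K : Set G) with hC
  have hAC : A ≤ Subgroup.normalizer (C : Set G) := by
    apply le_norm
    intro b hb z hz
    refine ⟨A.mul_mem (A.mul_mem hb hz.1) (A.inv_mem hb), ?_⟩
    refine Subgroup.mem_centralizer_iff.2 ?_
    intro t ht
    have h1 := Subgroup.mem_centralizer_iff.1 hz.2 _ (norm_conj' hAK hb ht)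
    calc t * (b * z * b⁻¹) = b * ((b⁻¹ * t * b) * z) * b⁻¹ := by group
      _ = b * (z * (b⁻¹ * t * b)) * b⁻¹ := by rw [h1]
      _ = b * z * b⁻¹ * t := by group
  have hLC : L ≤ C := by
    intro x hx
    refine ⟨(hLX hx).1, Subgroup.mem_centralizer_iff.2 ?_⟩
    intro k hk
    exact comm_of_inf hM (hKX.trans hXL) (hLX.trans hXK) hk hx
  have hCX : ∀ x ∈ C, x ∈ B → x ∈ L := by
    intro z hz hzB
    have hzX : z ∈ A ⊓ B := ⟨hz.1, hzB⟩
    have h1 : ψ' ⟨z, hzX⟩ = 1 := by
      apply cent_alt (by omega)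
      intro s hs
      obtain ⟨t, htX, htT, rfl⟩ := mem_im.1 (hKim hs)
      rw [← map_mul, ← map_mul]
      congr 1
      apply Subtype.ext
      exact Subgroup.mem_centralizer_iff.1 hz.2 t htT
    have h2 : (⟨z, hzX⟩ : (A ⊓ B : Subgroup G)) ∈ ψ'.ker := h1
    rw [hψ'L] at h2
    exact h2
  have hCK : ¬ C ≤ K := by
    intro hc
    apply hLne
    rw [eq_bot_iff, ← hM]
    exact le_inf (hLC.trans hc) le_rfl
  have hCB : ¬ C ≤ A ⊓ B := fun hc => hCK (hcoreA C hc hAC)
  let Y : Subgroup G :=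
    { carrier := {a | a ∈ A ∧ ∃ x ∈ A ⊓ B, x⁻¹ * a ∈ C}
      one_mem' := ⟨A.one_mem, 1, Subgroup.one_mem _, by simp [C.one_mem]⟩
      mul_mem' := by
        rintro a a' ⟨ha, x, hx, hxa⟩ ⟨ha', x', hx', hxa'⟩
        refine ⟨A.mul_mem ha ha', x * x', Subgroup.mul_mem _ hx hx', ?_⟩
        have h1 : (x * x')⁻¹ * (a * a') = (x'⁻¹ * (x⁻¹ * a) * x') * (x'⁻¹ * a') := by group
        rw [h1]
        exact C.mul_mem (norm_conj' hAC hx'.1 hxa) hxa'
      inv_mem' := by
        rintro a ⟨ha, x, hx, hxa⟩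
        refine ⟨A.inv_mem ha, x⁻¹, Subgroup.inv_mem _ hx, ?_⟩
        have h1 : x⁻¹⁻¹ * a⁻¹ = x * (x⁻¹ * a)⁻¹ * x⁻¹ := by group
        rw [h1]
        exact norm_conj hAC hx.1 (C.inv_mem hxa) }
  have hY : Y = A := by
    refine (hmaxA Y ?_ (fun a ha => ha.1)).resolve_left ?_
    · intro x hx
      exact ⟨hx.1, x, hx, by rw [inv_mul_cancel]; exact C.one_mem⟩
    · intro hc
      apply hCB
      rw [← hc]
      intro c hcC
      exact ⟨hcC.1, 1, Subgroup.one_mem _, by simpa using hcC⟩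
  have hex : ∀ a : A, ∃ x : (A ⊓ B : Subgroup G), (x : G)⁻¹ * (a : G) ∈ C := by
    intro a
    have h1 : (a : G) ∈ Y := by rw [hY]; exact a.2
    obtain ⟨-, x, hx, hxa⟩ := h1
    exact ⟨⟨x, hx⟩, hxa⟩
  choose g hg using hex
  have huniq : ∀ (a : A) (x : (A ⊓ B : Subgroup G)), (x : G)⁻¹ * (a : G) ∈ C → ψ' (g a) = ψ' x := by
    intro a x hx
    have h1 : (x : G)⁻¹ * (g a : G) ∈ C := by
      have h2 : (x : G)⁻¹ * (g a : G) = ((x : G)⁻¹ * a) * ((g a : G)⁻¹ * a)⁻¹ := by group
      rw [h2]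
      exact C.mul_mem hx (C.inv_mem (hg a))
    have h2 : (x : G)⁻¹ * (g a : G) ∈ L := hCX _ h1 (B.mul_mem (B.inv_mem x.2.2) (g a).2.2)
    have h3 : x⁻¹ * g a ∈ ψ'.ker := by
      rw [hψ'L]
      exact h2
    rw [MonoidHom.mem_ker, map_mul, map_inv] at h3
    exact (inv_mul_eq_one.1 h3).symm
  let θ : A →* Perm (Fin m) :=
    { toFun := fun a => ψ' (g a)
      map_one' := by
        rw [huniq 1 1 (by simp [C.one_mem]), map_one]
      map_mul' := by
        intro a a'
        rw [← map_mul]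
        apply huniq
        have h1 : ((g a * g a' : (A ⊓ B : Subgroup G)) : G)⁻¹ * ((a * a' : A) : G) =
            ((g a' : G)⁻¹ * ((g a : G)⁻¹ * a) * (g a' : G)) * ((g a' : G)⁻¹ * a') := by
          rw [Subgroup.coe_mul, Subgroup.coe_mul]
          group
        rw [h1]
        exact C.mul_mem (norm_conj' hAC (g a').2.1 (hg a)) (hg a') }
  have hθX : ∀ (x : G) (hx : x ∈ A ⊓ B), θ ⟨x, hx.1⟩ = ψ' ⟨x, hx⟩ := by
    intro x hx
    apply huniq
    change x⁻¹ * x ∈ C
    rw [inv_mul_cancel]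
    exact C.one_mem
  have hθC : ∀ (x : G) (hx : x ∈ C), θ ⟨x, hx.1⟩ = 1 := by
    intro x hx
    have h1 : θ ⟨x, hx.1⟩ = ψ' 1 := by
      apply huniq
      change (1 : G)⁻¹ * x ∈ C
      simpa using hx
    rw [h1, map_one]
  let Φ : A →* Perm (Fin n) × Perm (Fin m) := φ.prod θ
  have hφ1 : ∀ (x : G) (hx : x ∈ A), φ ⟨x, hx⟩ = 1 ↔ x ∈ K := by
    intro x hx
    rw [← MonoidHom.mem_ker, hφK]
    rfl
  have hΦinj : Function.Injective Φ := by
    rw [injective_iff_map_eq_one]
    rintro ⟨a, ha⟩ h1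
    have h2 : φ ⟨a, ha⟩ = 1 := congrArg Prod.fst h1
    have h3 : θ ⟨a, ha⟩ = 1 := congrArg Prod.snd h1
    rw [hφ1] at h2
    have h4 := hKX h2
    have h5 : ψ' ⟨a, h4⟩ = 1 := by rw [← hθX a h4]; exact h3
    have h6 : (⟨a, h4⟩ : (A ⊓ B : Subgroup G)) ∈ ψ'.ker := h5
    rw [hψ'L] at h6
    have h7 : a ∈ K ⊓ L := ⟨h2, h6⟩
    rw [hM, Subgroup.mem_bot] at h7
    exact Subtype.ext h7
  have hfst : Φ.range.map (MonoidHom.fst _ _) = φ.range := by
    rw [← MonoidHom.range_comp]
    congr 1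
  have hAim : alternatingGroup (Fin n) ≤ im φ C :=
    (im_cases hn hφK (by rw [im_self]; exact hφ) inf_le_left hAC).resolve_left hCK
  have hn2 : alternatingGroup (Fin n) ≠ ⊤ := by
    intro hc
    have : Nontrivial (Fin n) := Fin.nontrivial_iff_two_le.2 (by omega)
    have h1 := alternatingGroup.index_eq_two (α := Fin n)
    rw [hc, Subgroup.index_top] at h1
    omega
  have key := sub_prod Φ.range ?_ ?_ ?_ ?_ hn2
  · rw [hfst] at key
    have e := MonoidHom.ofInjective hΦinj
    rcases key with ⟨h1, ⟨e1⟩⟩ | ⟨h1, (h2 | h2 | h2)⟩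
    · exact Or.inl ⟨h1, ⟨e.trans e1⟩⟩
    · obtain ⟨e1⟩ := h2; exact Or.inr ⟨h1, Or.inl ⟨e.trans e1⟩⟩
    · obtain ⟨e1⟩ := h2; exact Or.inr ⟨h1, Or.inr (Or.inl ⟨e.trans e1⟩)⟩
    · obtain ⟨e1⟩ := h2; exact Or.inr ⟨h1, Or.inr (Or.inr ⟨e.trans e1⟩)⟩
  · intro s hs
    obtain ⟨c, hcA, hcC, hc⟩ := mem_im.1 (hAim hs)
    exact ⟨⟨c, hcA⟩, Prod.ext hc (hθC c hcC)⟩
  · intro t ht
    obtain ⟨k, hkX, hkK, hk⟩ := mem_im.1 (hKim ht)
    exact ⟨⟨k, hkX.1⟩, Prod.ext ((hφ1 k hkX.1).2 hkK) ((hθX k hkX).trans hk)⟩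
  · rw [hfst]
    rintro h1 _ ⟨a, rfl⟩
    by_contra hne
    have h2 : ψ'.range = ⊤ := by
      refine (alt_or_top hψ').resolve_left ?_
      intro hc
      apply hne
      have h3 : θ a ∈ ψ'.range := ⟨g a, rfl⟩
      rw [hc] at h3
      exact Equiv.Perm.mem_alternatingGroup.1 h3
    have c1 := card_im_mul (f := φ) (le_refl A) hφK
    rw [im_self, h1, inf_eq_right.2 (hKX.trans inf_le_left)] at c1
    have c2 := card_im_mul (f := ψ') (le_refl (A ⊓ B)) hψ'L
    rw [im_self, h2, inf_eq_right.2 hLX, Subgroup.card_top, cP] at c2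
    rw [← c1, ← c2] at hcard
    have h3 : n.factorial * Nat.card K = 2 * (n.factorial * Nat.card L) := by
      rw [← cA] at cnm ⊢
      calc 2 * Nat.card (alternatingGroup (Fin n)) * Nat.card K = 2 * (Nat.card (alternatingGroup (Fin n)) * Nat.card K) := by ring
        _ = 2 * (n * (m.factorial * Nat.card L)) := by rw [hcard]
        _ = 2 * ((n * m.factorial) * Nat.card L) := by ring
        _ = _ := by rw [← cnm]
    have h4 : n.factorial * Nat.card K = n.factorial * (2 * Nat.card L) := by rw [h3]; ring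
    have h5 := Nat.eq_of_mul_eq_mul_left (Nat.factorial_pos n) h4
    have h6 : 0 < Nat.card L := Nat.card_pos
    omega
  · rw [hfst]
    exact alt_or_top hφ

end H1.AltSub
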