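import Cfsg.Agent.Lib.H1.AltR

/-!
The intersection of the two kernels is trivial.
-/

set_option autoImplicit false

open Equiv Subgroup

namespace H1.AltSub

variable {G : Type*} [Group G]

theorem le_norm {A N : Subgroup G} (h : ∀ a ∈ A, ∀ x ∈ N, a * x * a⁻¹ ∈ N) :
    A ≤ Subgroup.normalizer (N : Set G) := by
  intro a ha
  rw [Subgroup.mem_normalizer_iff]
  intro x
  refine ⟨fun hx => h a ha x hx, fun hx => ?_⟩
  have h1 := h a⁻¹ (A.inv_mem ha) _ hx
  simpa [mul_assoc] using h1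

theorem norm_conj {A N : Subgroup G} (h : A ≤ Subgroup.normalizer (N : Set G)) {a x : G} (ha : a ∈ A) (hx : x ∈ N) :
    a * x * a⁻¹ ∈ N := (Subgroup.mem_normalizer_iff.1 (h ha) x).1 hx

theorem norm_conj' {A N : Subgroup G} (h : A ≤ Subgroup.normalizer (N : Set G)) {a x : G} (ha : a ∈ A) (hx : x ∈ N) :
    a⁻¹ * x * a ∈ N := by
  have := norm_conj h (A.inv_mem ha) hx
  rwa [inv_inv] at this

/-- two subgroups that normalize each other and intersect trivially commute -/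
theorem comm_of_inf {N N' : Subgroup G} (h : N ⊓ N' = ⊥) (h1 : N ≤ Subgroup.normalizer (N' : Set G))
    (h2 : N' ≤ Subgroup.normalizer (N : Set G)) {x y : G} (hx : x ∈ N) (hy : y ∈ N') : x * y = y * x := by
  have h3 : x * y * x⁻¹ * y⁻¹ ∈ N ⊓ N' := by
    refine ⟨?_, N'.mul_mem (norm_conj h1 hx hy) (N'.inv_mem hy)⟩
    have h4 : x * y * x⁻¹ * y⁻¹ = x * (y * x⁻¹ * y⁻¹) := by group
    rw [h4]
    exact N.mul_mem hx (norm_conj h2 hy (N.inv_mem hx))
  rw [h, Subgroup.mem_bot] at h3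
  calc x * y = (x * y * x⁻¹ * y⁻¹) * (y * x) := by group
    _ = y * x := by rw [h3, one_mul]

theorem im_commutator {X K : Subgroup G} {P : Type*} [Group P] (f : X →* P) (hK : K ≤ X) :
    im f ⁅K, K⁆ = ⁅im f K, im f K⁆ := by
  have h1 : (⁅K, K⁆).subgroupOf X = ⁅K.subgroupOf X, K.subgroupOf X⁆ := by
    apply Subgroup.map_injective X.subtype_injective
    rw [Subgroup.map_commutator, Subgroup.map_subgroupOf_eq_of_le hK, Subgroup.map_subgroupOf_eq_of_le]
    exact (Subgroup.commutator_le_self K).trans hK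
  rw [im, h1, Subgroup.map_commutator]
  rfl

theorem norm_commutator {A K : Subgroup G} (h : A ≤ Subgroup.normalizer (K : Set G)) :
    A ≤ Subgroup.normalizer ((⁅K, K⁆ : Subgroup G) : Set G) := by
  apply le_norm
  intro a ha x hx
  have h1 : (⁅K, K⁆ : Subgroup G).map (MulAut.conj a).toMonoidHom ≤ ⁅K, K⁆ := by
    rw [Subgroup.map_commutator]
    have h2 : K.map (MulAut.conj a).toMonoidHom ≤ K := by
      rintro _ ⟨y, hy, rfl⟩
      exact norm_conj h ha hy
    exact Subgroup.commutator_mono h2 h2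
  exact h1 ⟨x, hx, rfl⟩

/-- the alternative for a normalized subgroup -/
theorem im_cases {n : ℕ} (h5 : 5 ≤ n) {T N L R : Subgroup G} {f : T →* Perm (Fin n)} (hL : f.ker = L.subgroupOf T)
    (hR : alternatingGroup (Fin n) ≤ im f R) (hNT : N ≤ T) (hRN : R ≤ Subgroup.normalizer (N : Set G)) :
    N ≤ L ∨ alternatingGroup (Fin n) ≤ im f N := by
  rcases normal_cases (by rw [Nat.card_eq_fintype_card, Fintype.card_fin]; exact h5) hR (im_normalizer f hRN) with h | h
  · left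
    exact (im_eq_bot hNT hL).1 h
  · exact Or.inr h

variable [Finite G]

theorem inf_eq_bot {A B K L : Subgroup G} {h : G} (hAB : ∀ x, x ∈ A ↔ h * x * h⁻¹ ∈ B)
    (hKX : K ≤ A ⊓ B) (hLX : L ≤ A ⊓ B)
    (hAK : A ≤ Subgroup.normalizer (K : Set G)) (hBL : B ≤ Subgroup.normalizer (L : Set G))
    (hmaxA : ∀ Y : Subgroup G, A ⊓ B ≤ Y → Y ≤ A → Y = A ⊓ B ∨ Y = A)
    (hcoreA : ∀ N : Subgroup G, N ≤ A ⊓ B → A ≤ Subgroup.normalizer (N : Set G) → N ≤ K)
    {n m : ℕ} (hm : 5 ≤ m) (hn : 5 ≤ n)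
    (hmn : Nat.card (alternatingGroup (Fin m)) < Nat.card (alternatingGroup (Fin n)))
    {ψ : B →* Perm (Fin n)} (hψL : ψ.ker = L.subgroupOf B) (hψ : alternatingGroup (Fin n) ≤ ψ.range)
    {ψ' : (A ⊓ B : Subgroup G) →* Perm (Fin m)} (hψ'L : ψ'.ker = L.subgroupOf (A ⊓ B))
    (hψ' : alternatingGroup (Fin m) ≤ ψ'.range) (hKL : ¬ K ≤ L)
    (hZ : ∀ N : Subgroup G, N ≤ A ⊓ B → A ⊓ B ≤ Subgroup.normalizer (N : Set G) →
      (∀ x ∈ N, ∀ y ∈ N, x * y = y * x) → N = ⊥)
    (hcore : ∀ N : Subgroup G, N ≤ K ⊓ L → A ≤ Subgroup.normalizer (N : Set G) → N = ⊥) :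
    K ⊓ L = ⊥ := by
  have hm' : 5 ≤ Nat.card (Fin m) := by rw [Nat.card_eq_fintype_card, Fintype.card_fin]; exact hm
  have hn' : 5 ≤ Nat.card (Fin n) := by rw [Nat.card_eq_fintype_card, Fintype.card_fin]; exact hn
  have hXL : A ⊓ B ≤ Subgroup.normalizer (L : Set G) := inf_le_right.trans hBL
  have hXK : A ⊓ B ≤ Subgroup.normalizer (K : Set G) := inf_le_left.trans hAK
  have hKim : alternatingGroup (Fin m) ≤ im ψ' K :=
    (im_cases hm hψ'L (by rw [im_self]; exact hψ') hKX hXK).resolve_left hKL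
  set T : Subgroup G := ⁅K, K⁆ with hT
  have hTK : T ≤ K := Subgroup.commutator_le_self K
  have hTX : T ≤ A ⊓ B := hTK.trans hKX
  have hAT : A ≤ Subgroup.normalizer (T : Set G) := norm_commutator hAK
  have hTim : im ψ' T = alternatingGroup (Fin m) := by
    rw [hT, im_commutator ψ' hKX, commutator_of_le hm' hKim]
  have hCK : K ⊓ Subgroup.centralizer (T : Set G) = ⊥ := by
    apply hcore
    · intro z hz
      refine ⟨hz.1, ?_⟩
      have h1 : ψ' ⟨z, hKX hz.1⟩ = 1 := by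
        apply cent_alt (by omega)
        intro s hs
        rw [← hTim] at hs
        obtain ⟨t, htX, htT, rfl⟩ := mem_im.1 hs
        rw [← map_mul, ← map_mul]
        congr 1
        apply Subtype.ext
        exact Subgroup.mem_centralizer_iff.1 hz.2 t htT
      have h2 : (⟨z, hKX hz.1⟩ : (A ⊓ B : Subgroup G)) ∈ ψ'.ker := h1
      rw [hψ'L] at h2
      exact h2
    · apply le_norm
      intro a ha z hz
      refine ⟨norm_conj hAK ha hz.1, ?_⟩
      refine Subgroup.mem_centralizer_iff.2 ?_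
      intro t ht
      have h1 := Subgroup.mem_centralizer_iff.1 hz.2 _ (norm_conj' hAT ha ht)
      calc t * (a * z * a⁻¹) = a * ((a⁻¹ * t * a) * z) * a⁻¹ := by group
        _ = a * (z * (a⁻¹ * t * a)) * a⁻¹ := by rw [h1]
        _ = a * z * a⁻¹ * t := by group
  set N : Subgroup G := T ⊓ L with hN
  have hNM : N ≤ K ⊓ L := inf_le_inf_right L hTK
  have hXN : A ⊓ B ≤ Subgroup.normalizer (N : Set G) := by
    apply le_norm
    intro a ha x hx
    exact ⟨norm_conj hAT ha.1 hx.1, norm_conj hXL ha hx.2⟩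
  suffices hNbot : N = ⊥ by
    rw [eq_bot_iff, ← hCK]
    intro z hz
    refine ⟨hz.1, ?_⟩
    refine Subgroup.mem_centralizer_iff.2 ?_
    intro t ht
    have h1 : z * t * z⁻¹ * t⁻¹ ∈ N := by
      refine ⟨T.mul_mem (norm_conj hAT (hKX hz.1).1 ht) (T.inv_mem ht), ?_⟩
      have h4 : z * t * z⁻¹ * t⁻¹ = z * (t * z⁻¹ * t⁻¹) := by group
      rw [h4]
      exact L.mul_mem hz.2 (norm_conj hXL (hTX ht) (L.inv_mem hz.2))
    rw [hNbot, Subgroup.mem_bot] at h1
    symm
    calc z * t = (z * t * z⁻¹ * t⁻¹) * (t * z) := by group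
      _ = t * z := by rw [h1, one_mul]
  rcases hmaxA (A ⊓ Subgroup.normalizer (N : Set G)) (le_inf inf_le_left hXN) inf_le_left with hY | hY
  swap
  · exact hcore N hNM (by rw [← hY]; exact inf_le_right)
  exfalso
  have hTalt : ¬ T ≤ L := by
    intro hc
    rw [← im_eq_bot hTX hψ'L, hTim] at hc
    exact alt_ne_bot (by omega) hc
  -- conjugates of N
  have hNx : ∀ x : G, x ∈ A → x ∉ B → ¬ ∀ y ∈ N, x * y * x⁻¹ ∈ N := by
    intro x hxA hxB hc
    have h1 : x ∈ A ⊓ Subgroup.normalizer (N : Set G) := by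
      refine ⟨hxA, ?_⟩
      have h2 : N.map (MulAut.conj x).toMonoidHom = N := by
        apply Subgroup.eq_of_le_of_card_ge
        · rintro _ ⟨y, hy, rfl⟩
          exact hc y hy
        · exact (Nat.card_congr (N.equivMapOfInjective _ (MulAut.conj x).injective).toEquiv).le
      refine Subgroup.mem_normalizer_iff.2 ?_
      intro y
      refine ⟨fun hy => hc y hy, fun hy => ?_⟩
      have h3 : x * y * x⁻¹ ∈ N.map (MulAut.conj x).toMonoidHom := by rw [h2]; exact hy
      obtain ⟨z, hz, hz2⟩ := h3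
      have h4 : x * z * x⁻¹ = x * y * x⁻¹ := hz2
      have h5 : z = y := by
        have := mul_right_cancel h4
        exact mul_left_cancel this
      rw [← h5]
      exact hz
    rw [hY] at h1
    exact hxB h1.2
  let Ps : Set G → Subgroup G := fun s =>
    { carrier := {w | w ∈ T ∧ ∀ x ∈ s, x⁻¹ * w * x ∈ N}
      one_mem' := ⟨T.one_mem, fun x _ => by simp [N.one_mem]⟩
      mul_mem' := fun {u v} hu hv => ⟨T.mul_mem hu.1 hv.1, fun x hx => by
        have h1 : x⁻¹ * (u * v) * x = (x⁻¹ * u * x) * (x⁻¹ * v * x) := by group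
        rw [h1]
        exact N.mul_mem (hu.2 x hx) (hv.2 x hx)⟩
      inv_mem' := fun {u} hu => ⟨T.inv_mem hu.1, fun x hx => by
        have h1 : x⁻¹ * u⁻¹ * x = (x⁻¹ * u * x)⁻¹ := by group
        rw [h1]
        exact N.inv_mem (hu.2 x hx)⟩ }
  have memPs : ∀ s w, w ∈ Ps s ↔ w ∈ T ∧ ∀ x ∈ s, x⁻¹ * w * x ∈ N := fun s w => Iff.rfl
  have normPs : ∀ s : Set G, s ⊆ A → T ≤ Subgroup.normalizer (Ps s : Set G) := by
    intro s hs
    apply le_norm
    intro t ht w hw
    rw [memPs] at hw ⊢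
    refine ⟨T.mul_mem (T.mul_mem ht hw.1) (T.inv_mem ht), fun x hx => ?_⟩
    have h1 : x⁻¹ * (t * w * t⁻¹) * x = (x⁻¹ * t * x) * (x⁻¹ * w * x) * (x⁻¹ * t * x)⁻¹ := by group
    rw [h1]
    exact norm_conj hXN (hTX (norm_conj' hAT (hs hx) ht)) (hw.2 x hx)
  have key : ∀ s : Finset G, (∀ x ∈ s, x ∈ A ∧ x ∉ B) → ¬ Ps (s : Set G) ≤ N := by
    classical
    intro s
    induction s using Finset.induction_on with
    | empty =>
      intro _ hc
      apply hTalt
      intro t ht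
      have h1 : t ∈ Ps ((∅ : Finset G) : Set G) := by
        rw [memPs]
        exact ⟨ht, fun x hx => absurd hx (by simp)⟩
      exact (hc h1).2
    | insert x s hxs ih =>
      intro hs hc
      have ih' := ih (fun y hy => hs y (Finset.mem_insert_of_mem hy))
      have hxA := (hs x (Finset.mem_insert_self x s)).1
      have hxB := (hs x (Finset.mem_insert_self x s)).2
      have hsA : (s : Set G) ⊆ A := fun y hy => (hs y (Finset.mem_insert_of_mem hy)).1
      have hTR : alternatingGroup (Fin m) ≤ im ψ' T := hTim.ge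
      have h1 : alternatingGroup (Fin m) ≤ im ψ' (Ps s) := by
        refine (im_cases hm hψ'L hTR (show Ps (s : Set G) ≤ A ⊓ B from fun w hw => hTX hw.1) (normPs s hsA)).resolve_left ?_
        intro h2
        exact ih' (fun w hw => ⟨hw.1, h2 hw⟩)
      have h2 : alternatingGroup (Fin m) ≤ im ψ' (Ps {x}) := by
        refine (im_cases hm hψ'L hTR (show Ps {x} ≤ A ⊓ B from fun w hw => hTX hw.1) (normPs {x} (by simpa using hxA))).resolve_left ?_
        intro h3
        apply hNx x hxA hxB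
        intro y hy
        have h4 : x * y * x⁻¹ ∈ Ps {x} := by
          rw [memPs]
          refine ⟨norm_conj hAT hxA hy.1, ?_⟩
          intro z hz
          rw [Set.mem_singleton_iff] at hz
          subst hz
          have h5 : z⁻¹ * (z * y * z⁻¹) * z = y := by group
          rw [h5]
          exact hy
        exact ⟨h4.1, h3 h4⟩
      apply alt_ne_bot (α := Fin m) (by omega)
      rw [eq_bot_iff]
      intro σ hσ
      rw [Subgroup.mem_bot]
      apply cent_alt (by omega)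
      intro τ hτ
      obtain ⟨p, hpX, hp, rfl⟩ := mem_im.1 (h1 hσ)
      obtain ⟨q, hqX, hq, rfl⟩ := mem_im.1 (h2 hτ)
      have h3 : q * p * q⁻¹ * p⁻¹ ∈ Ps ((insert x s : Finset G) : Set G) := by
        have h4 : q * p * q⁻¹ * p⁻¹ ∈ Ps (s : Set G) :=
          (Ps (s : Set G)).mul_mem (norm_conj (normPs s hsA) hq.1 hp) ((Ps (s : Set G)).inv_mem hp)
        have h5 : q * p * q⁻¹ * p⁻¹ ∈ Ps ({x} : Set G) := by
          have h6 : q * p * q⁻¹ * p⁻¹ = q * (p * q⁻¹ * p⁻¹) := by group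
          rw [h6]
          exact (Ps ({x} : Set G)).mul_mem hq (norm_conj (normPs {x} (by simpa using hxA)) hp.1 ((Ps ({x} : Set G)).inv_mem hq))
        rw [memPs] at h4 h5 ⊢
        refine ⟨h4.1, fun y hy => ?_⟩
        rw [Finset.coe_insert, Set.mem_insert_iff] at hy
        rcases hy with rfl | hy
        · exact h5.2 y rfl
        · exact h4.2 y hy
      have h4 : q * p * q⁻¹ * p⁻¹ ∈ L := (hc h3).2
      have h5 : (⟨q, hqX⟩ * ⟨p, hpX⟩ * ⟨q, hqX⟩⁻¹ * ⟨p, hpX⟩⁻¹ : (A ⊓ B : Subgroup G)) ∈ ψ'.ker := by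
        rw [hψ'L]
        exact h4
      rw [MonoidHom.mem_ker, map_mul, map_mul, map_mul, map_inv, map_inv] at h5
      calc ψ' ⟨q, hqX⟩ * ψ' ⟨p, hpX⟩ = (ψ' ⟨q, hqX⟩ * ψ' ⟨p, hpX⟩ * (ψ' ⟨q, hqX⟩)⁻¹ * (ψ' ⟨p, hpX⟩)⁻¹) * (ψ' ⟨p, hpX⟩ * ψ' ⟨q, hqX⟩) := by group
        _ = _ := by rw [h5, one_mul]
  set W : Subgroup G := Ps {x | x ∈ A ∧ x ∉ B} with hW
  have hWN : ¬ W ≤ N := by
    have hfin : ({x | x ∈ A ∧ x ∉ B} : Set G).Finite := Set.toFinite _
    have h1 := key hfin.toFinset (fun x hx => hfin.mem_toFinset.1 hx)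
    rwa [hfin.coe_toFinset] at h1
  have hWX : W ≤ A ⊓ B := fun w hw => hTX hw.1
  have hXW : A ⊓ B ≤ Subgroup.normalizer (W : Set G) := by
    apply le_norm
    intro a ha w hw
    refine ⟨norm_conj hAT ha.1 hw.1, fun x hx => ?_⟩
    have h1 : x⁻¹ * (a * w * a⁻¹) * x = (a⁻¹ * x)⁻¹ * w * (a⁻¹ * x) := by group
    rw [h1]
    apply hw.2
    refine ⟨A.mul_mem (A.inv_mem ha.1) hx.1, fun hc => hx.2 ?_⟩
    have h2 := B.mul_mem ha.2 hc
    rwa [mul_inv_cancel_left] at h2
  have hWL : W ⊓ L = ⊥ := by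
    apply hcore
    · intro w hw
      exact ⟨hTK hw.1.1, hw.2⟩
    · have h0 : ∀ w, w ∈ W ⊓ L → ∀ x ∈ A, x⁻¹ * w * x ∈ N := by
        intro w hw x hx
        by_cases hxB : x ∈ B
        · exact norm_conj' hXN ⟨hx, hxB⟩ ⟨hw.1.1, hw.2⟩
        · exact hw.1.2 x ⟨hx, hxB⟩
      apply le_norm
      intro a ha w hw
      refine ⟨⟨norm_conj hAT ha hw.1.1, fun x hx => ?_⟩, ?_⟩
      · have h1 : x⁻¹ * (a * w * a⁻¹) * x = (a⁻¹ * x)⁻¹ * w * (a⁻¹ * x) := by group
        rw [h1]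
        exact h0 w hw _ (A.mul_mem (A.inv_mem ha) hx.1)
      · have h1 := h0 w hw a⁻¹ (A.inv_mem ha)
        rw [inv_inv] at h1
        exact h1.2
  set D : Subgroup G := B ⊓ Subgroup.centralizer (L : Set G) with hD
  have hWD : W ≤ D := by
    intro w hw
    refine ⟨(hWX hw).2, ?_⟩
    refine Subgroup.mem_centralizer_iff.2 ?_
    intro l hl
    exact (comm_of_inf hWL (hWX.trans hXL) (hLX.trans hXW) hw hl).symm
  have hBD : B ≤ Subgroup.normalizer (D : Set G) := by
    apply le_norm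
    intro b hb z hz
    refine ⟨B.mul_mem (B.mul_mem hb hz.1) (B.inv_mem hb), ?_⟩
    refine Subgroup.mem_centralizer_iff.2 ?_
    intro t ht
    have h1 := Subgroup.mem_centralizer_iff.1 hz.2 _ (norm_conj' hBL hb ht)
    calc t * (b * z * b⁻¹) = b * ((b⁻¹ * t * b) * z) * b⁻¹ := by group
      _ = b * (z * (b⁻¹ * t * b)) * b⁻¹ := by rw [h1]
      _ = b * z * b⁻¹ * t := by group
  have hDL : D ⊓ L = ⊥ := by
    apply hZ
    · exact inf_le_right.trans hLX
    · apply le_norm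
      intro a ha x hx
      exact ⟨norm_conj hBD ha.2 hx.1, norm_conj hXL ha hx.2⟩
    · intro x hx y hy
      exact (Subgroup.mem_centralizer_iff.1 hx.1.2 y hy.2).symm
  have hDne : D ≠ ⊥ := by
    intro hc
    apply hWN
    rw [hc, le_bot_iff] at hWD
    rw [hWD]
    exact bot_le
  -- transport to A
  have hmemD : ∀ x, h * x * h⁻¹ ∈ D → x ∈ A := fun x hx => (hAB x).2 hx.1
  let cj : A →* B :=
    { toFun := fun x => ⟨h * x * h⁻¹, (hAB x).1 x.2⟩
      map_one' := by apply Subtype.ext; simp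
      map_mul' := fun x y => by
        apply Subtype.ext
        change h * ((x : G) * y) * h⁻¹ = h * x * h⁻¹ * (h * y * h⁻¹)
        group }
  let f : A →* Perm (Fin n) := ψ.comp cj
  let pull : Subgroup G → Subgroup G := fun S => S.comap (MulAut.conj h).toMonoidHom
  have mempull : ∀ S x, x ∈ pull S ↔ h * x * h⁻¹ ∈ S := fun S x => Iff.rfl
  have hfL : f.ker = (pull L).subgroupOf A := by
    ext x
    rw [MonoidHom.mem_ker, Subgroup.mem_subgroupOf, mempull]
    change cj x ∈ ψ.ker ↔ _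
    rw [hψL]
    rfl
  have hfR : alternatingGroup (Fin n) ≤ im f A := by
    rw [im_self]
    intro s hs
    obtain ⟨⟨b, hb⟩, rfl⟩ := hψ hs
    have h1 : h⁻¹ * b * h ∈ A := by
      rw [hAB]
      have h2 : h * (h⁻¹ * b * h) * h⁻¹ = b := by group
      rwa [h2]
    refine ⟨⟨_, h1⟩, ?_⟩
    change ψ _ = ψ _
    congr 1
    apply Subtype.ext
    change h * (h⁻¹ * b * h) * h⁻¹ = b
    group
  have hD'A : pull D ≤ A := fun x hx => hmemD x hx
  have hAD' : A ≤ Subgroup.normalizer (pull D : Set G) := by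
    apply le_norm
    intro a ha x hx
    rw [mempull] at hx ⊢
    have h1 : h * (a * x * a⁻¹) * h⁻¹ = (h * a * h⁻¹) * (h * x * h⁻¹) * (h * a * h⁻¹)⁻¹ := by group
    rw [h1]
    exact norm_conj hBD ((hAB a).1 ha) hx
  have hD'L' : pull D ⊓ pull L = ⊥ := by
    rw [eq_bot_iff]
    intro x hx
    have h1 : h * x * h⁻¹ ∈ D ⊓ L := ⟨hx.1, hx.2⟩
    rw [hDL, Subgroup.mem_bot] at h1
    rw [Subgroup.mem_bot]
    have h2 : x = h⁻¹ * (h * x * h⁻¹) * h := by group
    rw [h2, h1]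
    group
  have hJ : pull D ⊓ T = ⊥ := by
    by_contra hJne
    set J := pull D ⊓ T with hJdef
    have hJA : J ≤ A := inf_le_left.trans hD'A
    have hAJ : A ≤ Subgroup.normalizer (J : Set G) := by
      apply le_norm
      intro a ha x hx
      exact ⟨norm_conj hAD' ha hx.1, norm_conj hAT ha hx.2⟩
    have hJL' : J ⊓ pull L = ⊥ := by
      rw [eq_bot_iff, ← hD'L']
      exact inf_le_inf_right _ inf_le_left
    have hJim : alternatingGroup (Fin n) ≤ im f J := by
      refine (im_cases hn hfL hfR hJA hAJ).resolve_left ?_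
      intro hc
      apply hJne
      rw [eq_bot_iff, ← hJL']
      exact le_inf le_rfl hc
    have hJ0 : J ≤ Subgroup.normalizer ((J ⊓ N : Subgroup G) : Set G) := by
      apply le_norm
      intro a ha x hx
      exact ⟨J.mul_mem (J.mul_mem ha hx.1) (J.inv_mem ha), norm_conj hXN (hTX ha.2) hx.2⟩
    rcases im_cases hn hfL hJim (inf_le_left.trans hJA) hJ0 with h1 | h1
    · have h2 : J ⊓ N = ⊥ := by
        rw [eq_bot_iff, ← hJL']
        exact le_inf inf_le_left h1
      have h3 : J ⊓ L = ⊥ := by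
        rw [eq_bot_iff, ← h2]
        exact fun x hx => ⟨hx.1, hx.1.2, hx.2⟩
      have h4 := card_im_mul (hJA.trans le_rfl : J ≤ A) hfL
      have h5 := card_im_mul (f := ψ') (inf_le_right.trans hTX : J ≤ A ⊓ B) hψ'L
      rw [h3] at h5
      rw [hJL'] at h4
      rw [Subgroup.card_bot, mul_one] at h4 h5
      have h6 : Nat.card (im ψ' J) ≤ Nat.card (alternatingGroup (Fin m)) := by
        rw [← hTim]
        exact Nat.le_of_dvd Nat.card_pos (Subgroup.card_dvd_of_le (im_mono ψ' inf_le_right))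
      have h7 : Nat.card (alternatingGroup (Fin n)) ≤ Nat.card (im f J) :=
        Nat.le_of_dvd Nat.card_pos (Subgroup.card_dvd_of_le hJim)
      rw [h4] at h7
      rw [h5] at h6
      exact absurd (h7.trans h6) (not_le.2 hmn)
    · let J1 : Subgroup G :=
        { carrier := {x | x ∈ J ∧ ∃ hx : x ∈ A, f ⟨x, hx⟩ ∈ alternatingGroup (Fin n)}
          one_mem' := ⟨J.one_mem, A.one_mem, by
            have : (⟨1, A.one_mem⟩ : A) = 1 := rfl
            rw [this, map_one]; exact Subgroup.one_mem _⟩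
          mul_mem' := by
            rintro u v ⟨hu, huA, hu2⟩ ⟨hv, hvA, hv2⟩
            refine ⟨J.mul_mem hu hv, A.mul_mem huA hvA, ?_⟩
            have : (⟨u * v, A.mul_mem huA hvA⟩ : A) = ⟨u, huA⟩ * ⟨v, hvA⟩ := rfl
            rw [this, map_mul]
            exact Subgroup.mul_mem _ hu2 hv2
          inv_mem' := by
            rintro u ⟨hu, huA, hu2⟩
            refine ⟨J.inv_mem hu, A.inv_mem huA, ?_⟩
            have : (⟨u⁻¹, A.inv_mem huA⟩ : A) = ⟨u, huA⟩⁻¹ := rfl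
            rw [this, map_inv]
            exact Subgroup.inv_mem _ hu2 }
      have hJ1N : J1 ≤ N := by
        rintro x ⟨hxJ, hxA, hx⟩
        obtain ⟨y, hyA, hyJ, hy⟩ := mem_im.1 (h1 hx)
        have h2 := im_inj hfL hJL' hyA hxA hyJ.1 hxJ hy
        rw [← h2]
        exact hyJ.2
      have hAJ1 : A ≤ Subgroup.normalizer (J1 : Set G) := by
        apply le_norm
        rintro a ha x ⟨hxJ, hxA, hx⟩
        refine ⟨norm_conj hAJ ha hxJ, A.mul_mem (A.mul_mem ha hxA) (A.inv_mem ha), ?_⟩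
        have : (⟨a * x * a⁻¹, A.mul_mem (A.mul_mem ha hxA) (A.inv_mem ha)⟩ : A) = ⟨a, ha⟩ * ⟨x, hxA⟩ * ⟨a, ha⟩⁻¹ := rfl
        rw [this, map_mul, map_mul, map_inv]
        rw [Equiv.Perm.mem_alternatingGroup] at hx ⊢
        simp [hx]
      have h2 := hcore J1 (hJ1N.trans hNM) hAJ1
      apply alt_ne_bot (α := Fin n) (by omega)
      rw [eq_bot_iff]
      intro s hs
      obtain ⟨x, hxA, hxJ, rfl⟩ := mem_im.1 (hJim hs)
      have h3 : x ∈ J1 := ⟨hxJ, hxA, hs⟩
      rw [h2, Subgroup.mem_bot] at h3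
      subst h3
      exact Subgroup.mem_bot.2 (map_one f)
  have hDT : ∀ x ∈ pull D, ∀ t ∈ T, x * t = t * x := fun x hx t ht =>
    comm_of_inf hJ (hD'A.trans hAT) ((hTX.trans inf_le_left).trans hAD') hx ht
  have hD'N : pull D ≤ A ⊓ Subgroup.normalizer (N : Set G) := by
    refine le_inf hD'A (le_norm ?_)
    intro x hx t ht
    rw [hDT x hx t ht.1, mul_inv_cancel_right]
    exact ht
  rw [hY] at hD'N
  have h1 : pull D ≤ K := hcoreA _ hD'N hAD'
  apply hDne
  rw [eq_bot_iff]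
  intro x hx
  have h2 : h⁻¹ * x * h ∈ pull D := by
    rw [mempull]
    have h3 : h * (h⁻¹ * x * h) * h⁻¹ = x := by group
    rwa [h3]
  have h3 : h⁻¹ * x * h ∈ K ⊓ Subgroup.centralizer (T : Set G) := by
    refine ⟨h1 h2, ?_⟩
    refine Subgroup.mem_centralizer_iff.2 ?_
    intro t ht
    exact (hDT _ h2 t ht).symm
  rw [hCK, Subgroup.mem_bot] at h3
  rw [Subgroup.mem_bot]
  have h4 : x = h * (h⁻¹ * x * h) * h⁻¹ := by group
  rw [h4, h3]
  group

end H1.AltSub
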