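import Mathlib

/-!
Groups with a homomorphism whose image contains the alternating group.
-/

set_option autoImplicit false

open Equiv Subgroup

namespace H1.AltSub

section Perm

variable {α : Type*} [Fintype α] [DecidableEq α]

/-- the centralizer of the alternating group is trivial -/
theorem cent_alt (h4 : 4 ≤ Nat.card α) {g : Perm α} (hg : ∀ s ∈ alternatingGroup α, s * g = g * s) : g = 1 := by
  ext x
  by_contra hx0
  have hx : g x ≠ x := hx0
  rw [Nat.card_eq_fintype_card] at h4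
  obtain ⟨y, hy⟩ : ∃ y, y ∉ ({x, g x} : Finset α) := by
    by_contra hc
    push Not at hc
    have h1 : (Finset.univ : Finset α) ⊆ {x, g x} := fun y _ => hc y
    have h2 := Finset.card_le_card h1
    have h3 : ({x, g x} : Finset α).card ≤ 2 := Finset.card_le_two
    rw [Finset.card_univ] at h2
    omega
  obtain ⟨z, hz⟩ : ∃ z, z ∉ ({x, g x, y} : Finset α) := by
    by_contra hc
    push Not at hc
    have h1 : (Finset.univ : Finset α) ⊆ {x, g x, y} := fun y _ => hc y
    have h2 := Finset.card_le_card h1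
    have h3 : ({x, g x, y} : Finset α).card ≤ 3 := Finset.card_le_three
    rw [Finset.card_univ] at h2
    omega
  simp only [Finset.mem_insert, Finset.mem_singleton, not_or] at hy hz
  have hxy : x ≠ y := Ne.symm hy.1
  have hxz : x ≠ z := Ne.symm hz.1
  have h1 : Equiv.swap x y * Equiv.swap x z ∈ alternatingGroup α := by
    rw [Equiv.Perm.mem_alternatingGroup, map_mul, Equiv.Perm.sign_swap hxy, Equiv.Perm.sign_swap hxz]
    rfl
  have h2 := congrArg (fun s : Perm α => s x) (hg _ h1)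
  simp only [Equiv.Perm.mul_apply, Equiv.swap_apply_left] at h2
  rw [Equiv.swap_apply_of_ne_of_ne hx (Ne.symm hz.2.1),
    Equiv.swap_apply_of_ne_of_ne hx (Ne.symm hy.2),
    Equiv.swap_apply_of_ne_of_ne hz.1 hz.2.2] at h2
  exact hxz (g.injective h2)

theorem normal_cases (h5 : 5 ≤ Nat.card α) {R N : Subgroup (Perm α)} (hR : alternatingGroup α ≤ R)
    (hN : R ≤ Subgroup.normalizer (N : Set (Perm α))) : N = ⊥ ∨ alternatingGroup α ≤ N := by
  have h1 : (N.subgroupOf (alternatingGroup α)).Normal :=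
    Subgroup.normal_subgroupOf_of_le_normalizer (hR.trans hN)
  rcases alternatingGroup.normal_subgroup_eq_bot_or_eq_top h5 (N := N.subgroupOf (alternatingGroup α)) with h | h
  · left
    rw [Subgroup.subgroupOf_eq_bot] at h
    rw [eq_bot_iff]
    intro g hg
    rw [Subgroup.mem_bot]
    apply cent_alt (by omega)
    intro s hs
    have h2 : s * g * s⁻¹ * g⁻¹ ∈ N := N.mul_mem ((Subgroup.mem_normalizer_iff.1 (hN (hR hs)) g).1 hg) (N.inv_mem hg)
    have h3 : s * g * s⁻¹ * g⁻¹ ∈ alternatingGroup α := by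
      rw [Equiv.Perm.mem_alternatingGroup] at hs ⊢
      simp [hs]
    have h4 : s * g * s⁻¹ * g⁻¹ = 1 := by
      have := (disjoint_iff.1 h).le (Subgroup.mem_inf.2 ⟨h2, h3⟩)
      exact Subgroup.mem_bot.1 this
    calc s * g = (s * g * s⁻¹ * g⁻¹) * (g * s) := by group
      _ = g * s := by rw [h4, one_mul]
  · right
    exact Subgroup.subgroupOf_eq_top.1 h

theorem alt_or_top {R : Subgroup (Perm α)} (hR : alternatingGroup α ≤ R) : R = alternatingGroup α ∨ R = ⊤ := by
  by_cases h : R ≤ alternatingGroup α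
  · exact Or.inl (le_antisymm h hR)
  · right
    obtain ⟨r, hr, hr'⟩ := SetLike.not_le_iff_exists.1 h
    rw [Equiv.Perm.mem_alternatingGroup] at hr'
    have hr2 : Equiv.Perm.sign r = -1 := (Int.units_eq_one_or _).resolve_left hr'
    rw [eq_top_iff]
    intro s _
    rcases Int.units_eq_one_or (Equiv.Perm.sign s) with hs | hs
    · exact hR (Equiv.Perm.mem_alternatingGroup.2 hs)
    · have h2 : s * r⁻¹ ∈ R := by
        apply hR
        rw [Equiv.Perm.mem_alternatingGroup, map_mul, map_inv, hs, hr2]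
        rfl
      have h3 := R.mul_mem h2 hr
      rwa [inv_mul_cancel_right] at h3

theorem commutator_of_le (h5 : 5 ≤ Nat.card α) {R : Subgroup (Perm α)} (hR : alternatingGroup α ≤ R) :
    ⁅R, R⁆ = alternatingGroup α := by
  apply le_antisymm
  · refine (Subgroup.commutator_mono le_top le_top).trans ?_
    exact alternatingGroup.commutator_perm_le
  · rw [← commutator_alternatingGroup_eq_self h5]
    exact Subgroup.commutator_mono hR hR

theorem alt_ne_bot (h3 : 3 ≤ Nat.card α) : alternatingGroup α ≠ ⊥ := by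
  have := alternatingGroup.nontrivial_of_three_le_card (α := α) h3
  exact (Subgroup.nontrivial_iff_ne_bot _).1 this

end Perm

section Im

variable {G : Type*} [Group G] {T : Subgroup G} {P : Type*} [Group P]

/-- image of the subgroup `N` of `G` under a hom of the subgroup `T` -/
def im (f : T →* P) (N : Subgroup G) : Subgroup P := (N.subgroupOf T).map f

theorem mem_im {f : T →* P} {N : Subgroup G} {p : P} :
    p ∈ im f N ↔ ∃ x, ∃ hx : x ∈ T, x ∈ N ∧ f ⟨x, hx⟩ = p := by
  constructor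
  · rintro ⟨⟨x, hx⟩, h1, h2⟩
    exact ⟨x, hx, h1, h2⟩
  · rintro ⟨x, hx, h1, h2⟩
    exact ⟨⟨x, hx⟩, h1, h2⟩

theorem im_mono (f : T →* P) {N N' : Subgroup G} (h : N ≤ N') : im f N ≤ im f N' :=
  Subgroup.map_mono (Subgroup.comap_mono h)

theorem im_self (f : T →* P) : im f T = f.range := by
  rw [im, Subgroup.subgroupOf_self, MonoidHom.range_eq_map]

/-- the elements of `T` in the normalizer of `N` map into the normalizer -/
theorem im_normalizer (f : T →* P) {N R : Subgroup G} (h : R ≤ Subgroup.normalizer (N : Set G)) :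
    im f R ≤ Subgroup.normalizer (im f N : Set P) := by
  rintro p hp
  obtain ⟨x, hx, hxR, rfl⟩ := mem_im.1 hp
  rw [Subgroup.mem_normalizer_iff]
  have key : ∀ y : G, y ∈ Subgroup.normalizer (N : Set G) → ∀ hy : y ∈ T, ∀ q ∈ im f N,
      f ⟨y, hy⟩ * q * (f ⟨y, hy⟩)⁻¹ ∈ im f N := by
    intro y hyN hy q hq
    obtain ⟨z, hz, hzN, rfl⟩ := mem_im.1 hq
    refine mem_im.2 ⟨y * z * y⁻¹, T.mul_mem (T.mul_mem hy hz) (T.inv_mem hy),
      (Subgroup.mem_normalizer_iff.1 hyN z).1 hzN, ?_⟩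
    rw [← map_mul, ← map_inv, ← map_mul]
    rfl
  intro q
  refine ⟨fun hq => key x (h hxR) hx q hq, fun hq => ?_⟩
  have h2 := key x⁻¹ ((Subgroup.normalizer (N : Set G)).inv_mem (h hxR)) (T.inv_mem hx) _ hq
  have h3 : f ⟨x⁻¹, T.inv_mem hx⟩ = (f ⟨x, hx⟩)⁻¹ := by rw [← map_inv]; rfl
  rw [h3] at h2
  simpa [mul_assoc] using h2

theorem im_eq_bot {f : T →* P} {N L : Subgroup G} (hN : N ≤ T) (hL : f.ker = L.subgroupOf T) :
    im f N = ⊥ ↔ N ≤ L := by
  rw [im, Subgroup.map_eq_bot_iff, hL]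
  constructor
  · intro h x hx
    exact h (show (⟨x, hN hx⟩ : T) ∈ N.subgroupOf T from hx)
  · intro h
    exact Subgroup.comap_mono h

theorem card_im_mul [Finite G] {f : T →* P} {N L : Subgroup G} (hN : N ≤ T) (hL : f.ker = L.subgroupOf T) :
    Nat.card (im f N) * Nat.card (N ⊓ L : Subgroup G) = Nat.card N := by
  have h1 : Nat.card (im f N) = (L.subgroupOf N).index := by
    have h2 : im f N = (f.comp (Subgroup.inclusion hN)).range := by
      ext p
      rw [mem_im, MonoidHom.mem_range]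
      constructor
      · rintro ⟨x, hx, hxN, rfl⟩
        exact ⟨⟨x, hxN⟩, rfl⟩
      · rintro ⟨⟨x, hxN⟩, rfl⟩
        exact ⟨x, hN hxN, hxN, rfl⟩
    rw [h2, ← Subgroup.index_ker]
    congr 1
    ext ⟨x, hx⟩
    rw [MonoidHom.mem_ker, MonoidHom.comp_apply, ← MonoidHom.mem_ker, hL]
    rfl
  have h3 : Nat.card (N ⊓ L : Subgroup G) = Nat.card (L.subgroupOf N) := by
    rw [← Subgroup.inf_subgroupOf_right, inf_comm N L]
    exact (Nat.card_congr (Subgroup.subgroupOfEquivOfLe (inf_le_right : L ⊓ N ≤ N)).toEquiv).symm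
  rw [h1, h3, mul_comm, Subgroup.card_mul_index]

theorem im_inj {f : T →* P} {N L : Subgroup G} (hL : f.ker = L.subgroupOf T) (hNL : N ⊓ L = ⊥)
    {x y : G} (hx : x ∈ T) (hy : y ∈ T) (hxN : x ∈ N) (hyN : y ∈ N) (h : f ⟨x, hx⟩ = f ⟨y, hy⟩) : x = y := by
  have h1 : (⟨x, hx⟩ * ⟨y, hy⟩⁻¹ : T) ∈ f.ker := by
    rw [MonoidHom.mem_ker, map_mul, map_inv, h, mul_inv_cancel]
  rw [hL] at h1
  have h2 : x * y⁻¹ ∈ L := h1
  have h3 : x * y⁻¹ ∈ N ⊓ L := ⟨N.mul_mem hxN (N.inv_mem hyN), h2⟩
  rw [hNL, Subgroup.mem_bot] at h3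
  exact mul_inv_eq_one.1 h3

end Im

end H1.AltSub
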