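import Cfsg.Agent.Lib.H1.AltP0

/-!
The action on the paired suborbit.
-/

set_option autoImplicit false

open Equiv Subgroup

namespace H1.AltSub

variable {G : Type*} [Group G] [Finite G]

omit [Finite G] in
theorem card_mul_rel {V U : Subgroup G} (h : V ≤ U) : Nat.card V * V.relIndex U = Nat.card U := by
  have := Subgroup.relIndex_mul_relIndex ⊥ V U bot_le h
  rwa [Subgroup.relIndex_bot_left, Subgroup.relIndex_bot_left] at this

theorem lemR {A L' : Subgroup G} {h : G} (hmax : IsCoatom A) (hcore : A.normalCore = ⊥) (hh : h ∉ A)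
    (hL'A : A ≤ Subgroup.normalizer (L' : Set G)) (hL' : L' ≤ A) (hL'2 : ∀ x ∈ L', h * x * h⁻¹ ∈ A)
    {n : ℕ} (h5 : 5 ≤ n) (f : A →* Perm (Fin n)) (hf : alternatingGroup (Fin n) ≤ f.range) :
    Nat.card (alternatingGroup (Fin n)) * Nat.card L' ≤ Nat.card A := by
  by_contra hcon
  push Not at hcon
  have h5' : 5 ≤ Nat.card (Fin n) := by rw [Nat.card_eq_fintype_card, Fintype.card_fin]; exact h5
  obtain ⟨U, ⟨hUA, hUf⟩, hmin⟩ := WellFounded.has_min (measure fun U : Subgroup G => Nat.card U).wf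
    {U : Subgroup G | U ≤ A ∧ alternatingGroup (Fin n) ≤ im f U} ⟨A, le_rfl, by rw [im_self]; exact hf⟩
  have hmin' : ∀ V : Subgroup G, V ≤ A → alternatingGroup (Fin n) ≤ im f V → Nat.card U ≤ Nat.card V := by
    intro V h1 h2
    by_contra hc
    push Not at hc
    exact hmin V ⟨h1, h2⟩ hc
  set S : Set G := {x | ∀ u ∈ U, x⁻¹ * u * x ∈ A} with hS
  have c1 : ∀ x ∈ S, ∀ a ∈ A, x * a ∈ S := by
    intro x hx a ha u hu
    have h1 : (x * a)⁻¹ * u * (x * a) = a⁻¹ * (x⁻¹ * u * x) * a := by group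
    rw [h1]
    exact A.mul_mem (A.mul_mem (A.inv_mem ha) (hx u hu)) ha
  have c2 : ∀ x ∈ S, x * h⁻¹ ∈ S := by
    intro x hx
    set W : Subgroup G := L'.map (MulAut.conj x).toMonoidHom with hW
    have memW : ∀ y, y ∈ W ↔ x⁻¹ * y * x ∈ L' := by
      intro y
      rw [hW, Subgroup.mem_map_equiv]
      simp [MulAut.conj_symm_apply]
    set Ax : Subgroup G := A.map (MulAut.conj x).toMonoidHom with hAx
    have memAx : ∀ y, y ∈ Ax ↔ x⁻¹ * y * x ∈ A := by
      intro y
      rw [hAx, Subgroup.mem_map_equiv]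
      simp [MulAut.conj_symm_apply]
    have hUAx : U ≤ Ax := fun u hu => (memAx u).2 (hx u hu)
    have hWAx : W ≤ Ax := fun y hy => (memAx y).2 (hL' ((memW y).1 hy))
    have hUV : U ≤ Subgroup.normalizer ((U ⊓ W : Subgroup G) : Set G) := by
      intro u hu
      rw [Subgroup.mem_normalizer_iff]
      intro y
      rw [Subgroup.mem_inf, Subgroup.mem_inf, ← Subgroup.mem_normalizer_iff.1 (Subgroup.le_normalizer hu) y, memW, memW]
      have h1 := Subgroup.mem_normalizer_iff.1 (hL'A (hx u hu)) (x⁻¹ * y * x)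
      have h2 : x⁻¹ * u * x * (x⁻¹ * y * x) * (x⁻¹ * u * x)⁻¹ = x⁻¹ * (u * y * u⁻¹) * x := by group
      rw [h2] at h1
      rw [h1]
    have hVA : U ⊓ W ≤ A := inf_le_left.trans hUA
    rcases normal_cases h5' hUf (im_normalizer f hUV) with h1 | h1
    · exfalso
      have h2 : U ⊓ W ≤ f.ker.map A.subtype := by
        intro y hy
        have hyA := hVA hy
        have h3 : f ⟨y, hyA⟩ ∈ im f (U ⊓ W) := mem_im.2 ⟨y, hyA, hy, rfl⟩
        rw [h1, Subgroup.mem_bot] at h3
        exact ⟨⟨y, hyA⟩, h3, rfl⟩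
      have h3 : f.ker = (f.ker.map A.subtype).subgroupOf A := by
        rw [Subgroup.subgroupOf, Subgroup.comap_map_eq_self_of_injective A.subtype_injective]
      have h4 := card_im_mul hUA h3
      have h5 : Nat.card (U ⊓ W : Subgroup G) ≤ Nat.card (U ⊓ f.ker.map A.subtype : Subgroup G) :=
        Nat.le_of_dvd Nat.card_pos (Subgroup.card_dvd_of_le (le_inf inf_le_left h2))
      have h6 : Nat.card (U ⊓ W : Subgroup G) * W.relIndex U = Nat.card U := by
        rw [← Subgroup.inf_relIndex_left]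
        exact card_mul_rel inf_le_left
      have h7 : Nat.card L' * W.relIndex Ax = Nat.card A := by
        have h8 : Nat.card W = Nat.card L' := (Nat.card_congr (L'.equivMapOfInjective _ (MulAut.conj x).injective).toEquiv).symm
        have h9 : Nat.card Ax = Nat.card A := (Nat.card_congr (A.equivMapOfInjective _ (MulAut.conj x).injective).toEquiv).symm
        rw [← h8, ← h9]
        exact card_mul_rel hWAx
      have h8 : W.relIndex U ≤ W.relIndex Ax := Subgroup.relIndex_le_of_le_right hUAx (Subgroup.index_ne_zero_of_finite (H := W.subgroupOf Ax))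
      have h9 : Nat.card (alternatingGroup (Fin n)) ≤ Nat.card (im f U) :=
        Nat.le_of_dvd Nat.card_pos (Subgroup.card_dvd_of_le hUf)
      have hV0 : 0 < Nat.card (U ⊓ W : Subgroup G) := Nat.card_pos
      have h10 : Nat.card (im f U) ≤ W.relIndex U := by
        have h11 : Nat.card (U ⊓ W : Subgroup G) * Nat.card (im f U) ≤ Nat.card (U ⊓ W : Subgroup G) * W.relIndex U := by
          rw [h6, ← h4, mul_comm]
          exact Nat.mul_le_mul_left _ h5
        exact Nat.le_of_mul_le_mul_left h11 hV0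
      have h11 : Nat.card (alternatingGroup (Fin n)) * Nat.card L' ≤ Nat.card A := by
        rw [← h7, mul_comm]
        exact Nat.mul_le_mul_left _ (h9.trans (h10.trans h8))
      omega
    · have h2 := hmin' _ hVA h1
      have h3 : U ⊓ W = U := Subgroup.eq_of_le_of_card_ge inf_le_left h2
      intro u hu
      have h4 : u ∈ W := (h3.ge hu).2
      have h5 := hL'2 _ ((memW u).1 h4)
      have h6 : (x * h⁻¹)⁻¹ * u * (x * h⁻¹) = h * (x⁻¹ * u * x) * h⁻¹ := by group
      rw [h6]
      exact h5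
  have hpow : ∀ g : G, (∀ x ∈ S, x * g ∈ S) → ∀ k : ℕ, ∀ x ∈ S, x * g ^ k ∈ S := by
    intro g hg k
    induction k with
    | zero => intro x hx; rwa [pow_zero, mul_one]
    | succ k ih =>
      intro x hx
      rw [pow_succ, ← mul_assoc]
      exact hg _ (ih x hx)
  let Sub : Subgroup G :=
    { carrier := {g | ∀ x ∈ S, x * g ∈ S}
      one_mem' := fun x hx => by rwa [mul_one]
      mul_mem' := fun {g g'} hg hg' x hx => by rw [← mul_assoc]; exact hg' _ (hg x hx)
      inv_mem' := fun {g} hg x hx => by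
        have h1 : g⁻¹ = g ^ (orderOf g - 1) := by
          rw [eq_comm, ← mul_eq_one_iff_eq_inv, ← pow_succ, Nat.sub_add_cancel (orderOf_pos g), pow_orderOf_eq_one]
        rw [h1]
        exact hpow g hg _ x hx }
  have hASub : A ≤ Sub := fun a ha x hx => c1 x hx a ha
  have hhSub : h⁻¹ ∈ Sub := fun x hx => c2 x hx
  have hSub : Sub = ⊤ := by
    apply hmax.2
    refine lt_of_le_of_ne hASub ?_
    intro he
    apply hh
    rw [he]
    exact (Sub.inv_mem_iff).1 hhSub
  have h1S : (1 : G) ∈ S := by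
    intro u hu
    rw [inv_one, one_mul, mul_one]
    exact hUA hu
  have hall : ∀ g : G, g ∈ S := by
    intro g
    have h1 : g ∈ Sub := by rw [hSub]; exact Subgroup.mem_top g
    have h2 := h1 1 h1S
    rwa [one_mul] at h2
  have hU : U = ⊥ := by
    rw [eq_bot_iff, ← hcore]
    intro u hu g
    have h1 := hall g⁻¹ u hu
    rwa [inv_inv] at h1
  rw [hU] at hUf
  have h1 : im f (⊥ : Subgroup G) = ⊥ := by
    rw [eq_bot_iff]
    intro p hp
    obtain ⟨x, hx, hx1, rfl⟩ := mem_im.1 hp
    rw [Subgroup.mem_bot] at hx1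
    subst hx1
    exact Subgroup.mem_bot.2 (map_one f)
  rw [h1] at hUf
  exact alt_ne_bot (by omega) (le_bot_iff.1 hUf)

end H1.AltSub
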