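import Cfsg.Agent.Lib.H1.AltI
import Cfsg.Agent.Lib.H1.Cores

/-!
Restriction to a point stabilizer, maximality, Fitting subgroup.
-/

set_option autoImplicit false

open Equiv Subgroup

namespace H1.AltSub

theorem restrict {G : Type*} [Group G] {T X K : Subgroup G} (hXT : X ≤ T) {n m : ℕ} (hnm : n = m + 1)
    (f : T →* Perm (Fin n)) (hK : f.ker = K.subgroupOf T) (hf : alternatingGroup (Fin n) ≤ f.range) (p : Fin n)
    (hX : ∀ x (hx : x ∈ T), x ∈ X ↔ f ⟨x, hx⟩ p = p) :
    ∃ f' : X →* Perm (Fin m), f'.ker = K.subgroupOf X ∧ alternatingGroup (Fin m) ≤ f'.range := by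
  have hcard : Fintype.card {i : Fin n // i ≠ p} = m := by
    have h1 := Fintype.card_subtype_compl (fun i : Fin n => i = p)
    rw [Fintype.card_subtype_eq, Fintype.card_fin] at h1
    have h2 : Fintype.card {i : Fin n // i ≠ p} = n - 1 := by
      rw [← h1]
    omega
  let ε : {i : Fin n // i ≠ p} ≃ Fin m := Fintype.equivFinOfCardEq hcard
  have hfix : ∀ x : X, f ⟨x, hXT x.2⟩ p = p := fun x => (hX x (hXT x.2)).1 x.2
  have hp : ∀ x : X, ∀ i, (f ⟨x, hXT x.2⟩ i ≠ p) ↔ i ≠ p := by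
    intro x i
    rw [not_iff_not]
    constructor
    · intro h
      rw [← hfix x] at h
      exact (f ⟨x, hXT x.2⟩).injective h
    · rintro rfl
      exact hfix x
  let r : X →* Perm {i : Fin n // i ≠ p} :=
    { toFun := fun x => (f ⟨x, hXT x.2⟩).subtypePerm (hp x)
      map_one' := by
        apply Equiv.ext
        intro i
        apply Subtype.ext
        change f ⟨((1 : X) : G), hXT (1 : X).2⟩ (i : Fin n) = i
        have h1 : f ⟨((1 : X) : G), hXT (1 : X).2⟩ = 1 := map_one f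
        rw [h1]
        rfl
      map_mul' := by
        intro x y
        apply Equiv.ext
        intro i
        apply Subtype.ext
        change f ⟨((x * y : X) : G), hXT (x * y : X).2⟩ (i : Fin n) = f ⟨x, hXT x.2⟩ (f ⟨y, hXT y.2⟩ i)
        have h1 : f ⟨((x * y : X) : G), hXT (x * y : X).2⟩ = f ⟨x, hXT x.2⟩ * f ⟨y, hXT y.2⟩ :=
          map_mul f ⟨x, hXT x.2⟩ ⟨y, hXT y.2⟩
        rw [h1]
        rfl }
  have hr : ∀ (x : X) (i : {i : Fin n // i ≠ p}), ((r x i : {i : Fin n // i ≠ p}) : Fin n) = f ⟨x, hXT x.2⟩ i := fun x i => rfl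
  refine ⟨ε.permCongrHom.toMonoidHom.comp r, ?_, ?_⟩
  · ext x
    rw [MonoidHom.mem_ker, Subgroup.mem_subgroupOf]
    have h1 : (ε.permCongrHom.toMonoidHom.comp r) x = 1 ↔ r x = 1 := by
      change ε.permCongrHom (r x) = 1 ↔ _
      rw [map_eq_one_iff _ ε.permCongrHom.injective]
    have h2 : (x : G) ∈ K ↔ f ⟨x, hXT x.2⟩ = 1 := by
      rw [← MonoidHom.mem_ker, hK]
      rfl
    rw [h1, h2]
    constructor
    · intro h
      ext i
      by_cases hi : i = p
      · rw [hi, hfix x]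
        rfl
      · have h3 := hr x ⟨i, hi⟩
        rw [h] at h3
        rw [← h3]
        rfl
    · intro h
      ext i
      rw [hr x i, h]
      rfl
  · intro s hs
    set s' : Perm {i : Fin n // i ≠ p} := ε.permCongrHom.symm s with hs'
    have h1 : Equiv.Perm.sign s' = 1 := by
      rw [hs', Equiv.permCongrHom_symm]
      rw [Equiv.permCongrHom_coe, Equiv.Perm.sign_permCongr]
      exact Equiv.Perm.mem_alternatingGroup.1 hs
    have h2 : Equiv.Perm.ofSubtype s' ∈ alternatingGroup (Fin n) := by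
      rw [Equiv.Perm.mem_alternatingGroup, Equiv.Perm.sign_ofSubtype]
      exact h1
    obtain ⟨⟨t, ht⟩, hft⟩ := hf h2
    have h3 : t ∈ X := by
      rw [hX t ht, hft]
      exact Equiv.Perm.ofSubtype_apply_of_not_mem s' (by simp)
    refine ⟨⟨t, h3⟩, ?_⟩
    change ε.permCongrHom (r ⟨t, h3⟩) = s
    have h4 : r ⟨t, h3⟩ = s' := by
      ext i
      rw [hr]
      change ((f ⟨t, ht⟩ i : Fin n) : ℕ) = _
      rw [hft, Equiv.Perm.ofSubtype_apply_coe]
    rw [h4, hs', MulEquiv.apply_symm_apply]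

theorem max_of_alt {G : Type*} [Group G] {T X : Subgroup G} (hXT : X ≤ T) {n : ℕ} (hn : 4 ≤ n)
    (f : T →* Perm (Fin n)) (hf : alternatingGroup (Fin n) ≤ f.range) (p : Fin n)
    (hX : ∀ x (hx : x ∈ T), x ∈ X ↔ f ⟨x, hx⟩ p = p) (Y : Subgroup G) (hXY : X ≤ Y) (hYT : Y ≤ T) :
    Y = X ∨ Y = T := by
  by_cases hYX : Y ≤ X
  · exact Or.inl (le_antisymm hYX hXY)
  right
  obtain ⟨y, hyY, hyX⟩ := SetLike.not_le_iff_exists.1 hYX
  apply le_antisymm hYT
  intro a ha
  rw [hX y (hYT hyY)] at hyX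
  set q := f ⟨y, hYT hyY⟩ p with hq
  set r := f ⟨a, ha⟩ p with hr
  by_cases hrp : r = p
  · exact hXY ((hX a ha).2 hrp)
  obtain ⟨σ, hσ, hσp, hσq⟩ : ∃ σ ∈ alternatingGroup (Fin n), σ p = p ∧ σ q = r := by
    by_cases hqr : q = r
    · exact ⟨1, Subgroup.one_mem _, rfl, hqr⟩
    obtain ⟨u, hu⟩ : ∃ u : Fin n, u ∉ ({p, q, r} : Finset (Fin n)) := by
      by_contra hc
      push Not at hc
      have h1 : (Finset.univ : Finset (Fin n)) ⊆ {p, q, r} := fun y _ => hc y
      have h2 := Finset.card_le_card h1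
      have h3 : ({p, q, r} : Finset (Fin n)).card ≤ 3 := Finset.card_le_three
      rw [Finset.card_univ, Fintype.card_fin] at h2
      omega
    simp only [Finset.mem_insert, Finset.mem_singleton, not_or] at hu
    refine ⟨Equiv.swap q u * Equiv.swap q r, ?_, ?_, ?_⟩
    · rw [Equiv.Perm.mem_alternatingGroup, map_mul, Equiv.Perm.sign_swap (Ne.symm hu.2.1), Equiv.Perm.sign_swap hqr]
      rfl
    · rw [Equiv.Perm.mul_apply, Equiv.swap_apply_of_ne_of_ne (Ne.symm hyX) (Ne.symm hrp),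
        Equiv.swap_apply_of_ne_of_ne (Ne.symm hyX) (Ne.symm hu.1)]
    · rw [Equiv.Perm.mul_apply, Equiv.swap_apply_left, Equiv.swap_apply_of_ne_of_ne (Ne.symm hqr) (Ne.symm hu.2.2)]
  obtain ⟨⟨x, hx⟩, hfx⟩ := hf hσ
  have hxX : x ∈ X := by
    rw [hX x hx, hfx]
    exact hσp
  have h1 : (x * y)⁻¹ * a ∈ X := by
    have h2 : (x * y)⁻¹ * a ∈ T := T.mul_mem (T.inv_mem (T.mul_mem hx (hYT hyY))) ha
    rw [hX _ h2]
    have h3 : (⟨(x * y)⁻¹ * a, h2⟩ : T) = (⟨x, hx⟩ * ⟨y, hYT hyY⟩)⁻¹ * ⟨a, ha⟩ := rfl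
    rw [h3, map_mul, map_inv, map_mul, Equiv.Perm.mul_apply, ← hr, Equiv.Perm.inv_eq_iff_eq, Equiv.Perm.mul_apply,
      ← hq, hfx, hσq]
  have h2 := Y.mul_mem (Y.mul_mem (hXY hxX) hyY) (hXY h1)
  have h3 : x * y * ((x * y)⁻¹ * a) = a := by group
  rwa [h3] at h2

theorem fitting_eq_bot {T : Type*} [Group T] [Finite T] {m : ℕ} (hm : 5 ≤ m) (f : T →* Perm (Fin m))
    (hf : alternatingGroup (Fin m) ≤ f.range) (hinj : Function.Injective f) : Cfsg.fittingSubgroup T = ⊥ := by
  have hm' : 5 ≤ Nat.card (Fin m) := by rw [Nat.card_eq_fintype_card, Fintype.card_fin]; exact hm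
  set F := Cfsg.fittingSubgroup T with hF
  have hchar : F.Characteristic := H1.Cores.fittingSubgroup_characteristic
  have hnil : Group.IsNilpotent F := H1.Cores.isNilpotent_fittingSubgroup
  have h1 : f.range ≤ Subgroup.normalizer (F.map f : Set (Perm (Fin m))) := by
    apply le_norm
    rintro _ ⟨t, rfl⟩ _ ⟨x, hx, rfl⟩
    refine ⟨t * x * t⁻¹, (inferInstance : F.Normal).conj_mem x hx t, ?_⟩
    rw [map_mul, map_mul, map_inv]
  rcases normal_cases hm' hf h1 with h2 | h2
  · exact (Subgroup.map_eq_bot_iff_of_injective F hinj).1 h2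
  · exfalso
    have h3 : Group.IsNilpotent (F.map f) := by
      have e := F.equivMapOfInjective f hinj
      exact Group.nilpotent_of_mulEquiv e
    have h4 : Group.IsNilpotent (alternatingGroup (Fin m)) := by
      exact Group.nilpotent_of_mulEquiv (Subgroup.subgroupOfEquivOfLe h2)
    have h5 : Group.IsSolvable (alternatingGroup (Fin m)) := inferInstance
    have h6 : Nontrivial (alternatingGroup (Fin m)) := alternatingGroup.nontrivial_of_three_le_card (by omega)
    have h7 := Group.IsSolvable.commutator_lt_top_of_nontrivial (alternatingGroup (Fin m))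
    rw [commutator_alternatingGroup_eq_top hm'] at h7
    exact lt_irrefl _ h7

end H1.AltSub
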