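import Cfsg.Agent.Lib.H1.FrobSyl

set_option autoImplicit false

universe u

namespace H1.BB4P3

open Subgroup

/-- a `p`-group (`p` odd) acting fixed-point-freely on an elementary abelian `2`-group is cyclic -/
theorem cyc {G : Type u} [Group G] [Finite G] (E P : Subgroup G) (_hEc : ∀ g ∈ E, ∀ g' ∈ E, g * g' = g' * g)
    (_hE2 : ∀ g ∈ E, g * g = 1) (hE1 : E ≠ ⊥) {p : ℕ} (hp : p.Prime) (hp2 : p ≠ 2) (hP : IsPGroup p P)
    (hN : ∀ g ∈ P, ∀ e ∈ E, g * e * g⁻¹ ∈ E)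
    (hf : ∀ g ∈ P, g ≠ 1 → ∀ e ∈ E, e ≠ 1 → g * e ≠ e * g) : IsCyclic P := by
  haveI := Fact.mk hp
  have hPE : P ≤ normalizer (E : Set G) := by
    intro g hg
    rw [mem_normalizer_iff]
    intro e
    refine ⟨fun he => hN g hg e he, fun he => ?_⟩
    have h1 := hN g⁻¹ (P.inv_mem hg) _ he
    have h2 : g⁻¹ * (g * e * g⁻¹) * g⁻¹⁻¹ = e := by group
    rwa [h2] at h1
  have hfpf : ∀ a ∈ P, a ≠ 1 → E ⊓ Subgroup.centralizer {a} = ⊥ := by
    intro a ha ha1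
    rw [eq_bot_iff]
    rintro e ⟨he, hec⟩
    rw [mem_bot]
    by_contra he1
    refine hf a ha ha1 e he he1 ?_
    exact (mem_centralizer_singleton_iff.1 hec).symm
  rcases H1.FrobSyl.cyclic_or_quaternion P E hE1 hPE hfpf p hP with h | h
  · exact h
  · exact absurd h.1 hp2

end H1.BB4P3
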