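import Mathlib
import Cfsg.Agent.Lib.H54.RA0

set_option autoImplicit false
set_option maxRecDepth 100000

/-! S3330, piece T1: in the twisted case with `C(t) ≤ N(D)` the two copies of `Alt(5)` commute. -/

namespace H1.RT1

open Equiv Subgroup H54.RA

/-- `(0 1)(2 4)` -/
def k0 : Perm (Fin 5) := swap 0 1 * swap 2 4
/-- `(1 2)(0 4)` -/
def s0 : Perm (Fin 5) := swap 1 2 * t5

theorem gen0 : ∀ a : Perm (Fin 5), Perm.sign a = 1 → ∃ i : Fin 5, ∃ j : Fin 3, ∃ p q : Fin 2,
    a = (d5 * k0) ^ (i : ℕ) * (d5 * k0 * s0 * d5 * k0 * d5) ^ (j : ℕ) * s0 ^ (p : ℕ) *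
      k0 ^ (q : ℕ) := by
  decide +kernel

theorem gen (A : Subgroup (Perm (Fin 5))) (hk : k0 ∈ A) (hd : d5 ∈ A) (hs : s0 ∈ A) :
    ∀ a : Perm (Fin 5), Perm.sign a = 1 → a ∈ A := by
  intro a ha
  obtain ⟨i, j, p, q, rfl⟩ := gen0 a ha
  exact mul_mem (mul_mem (mul_mem (pow_mem (mul_mem hd hk) _)
    (pow_mem (mul_mem (mul_mem (mul_mem (mul_mem (mul_mem hd hk) hs) hd) hk) hd) _))
    (pow_mem hs _)) (pow_mem hk _)

theorem cent0 : ∀ q : Perm (Fin 5), q * t5 = t5 * q → q * s0 = s0 * q → q * swap 1 2 = swap 1 2 * q →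
    q = 1 ∨ q = s0 ∨ q = t5 ∨ q = swap 1 2 := by
  decide +kernel

theorem cent3 : ∀ p : Perm (Fin 3), p * swap 0 1 = swap 0 1 * p → p = 1 ∨ p = swap 0 1 := by
  decide +kernel

theorem t1 {G : Type*} [Group G] [Finite G] {ψ : PP →* G} {n : G} (h : TD ψ n)
    (hN : ∀ g : G, g * ψ (1, t5) = ψ (1, t5) * g → g ∈ normalizer (DD ψ : Set G)) :
    ∀ a b : Perm (Fin 5), Perm.sign a = 1 → Perm.sign b = 1 →
      ψ (1, a) * (n * ψ (1, b) * n⁻¹) = (n * ψ (1, b) * n⁻¹) * ψ (1, a) := by
  have hmul : ∀ (a c : Perm (Fin 3)) (b d : Perm (Fin 5)), ψ (a, b) * ψ (c, d) = ψ (a * c, b * d) := by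
    intro a c b d
    rw [← map_mul, Prod.mk_mul_mk]
  have hone : ψ (1, 1) = 1 := by
    have : ((1, 1) : PP) = 1 := rfl
    rw [this, map_one]
  have hninv : n⁻¹ = n := inv_eq_of_mul_eq_one_left h.nn
  obtain ⟨t, ht⟩ : ∃ t, t = ψ (1, t5) := ⟨_, rfl⟩
  obtain ⟨s, hs⟩ : ∃ s, s = ψ (1, s0) := ⟨_, rfl⟩
  obtain ⟨r, hr⟩ : ∃ r, r = ψ (swap 0 1, 1) := ⟨_, rfl⟩
  obtain ⟨k, hk⟩ : ∃ k, k = ψ (1, k0) := ⟨_, rfl⟩
  obtain ⟨w, hw⟩ : ∃ w, w = ψ (1, d5) := ⟨_, rfl⟩
  obtain ⟨z, hz⟩ : ∃ z, z = ψ (c3, 1) := ⟨_, rfl⟩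
  obtain ⟨u, hu⟩ : ∃ u, u = n * k * n⁻¹ := ⟨_, rfl⟩
  have hnt : n * t * n⁻¹ = t := by rw [ht, h.nt]; group
  have htt : t * t = 1 := by
    rw [ht, hmul, show t5 * t5 = 1 by decide +kernel, one_mul, hone]
  have hkk : k * k = 1 := by
    rw [hk, hmul, show k0 * k0 = 1 by decide +kernel, one_mul, hone]
  -- n s n⁻¹ = r
  have hns : n * s * n⁻¹ = r := by
    have e1 : s = ψ (1, swap 1 2) * t := by
      rw [hs, ht, hmul, one_mul]; rfl
    calc n * s * n⁻¹ = (n * ψ (1, swap 1 2) * n⁻¹) * (n * t * n⁻¹) := by rw [e1]; group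
      _ = r := by
        rw [h.n3, hnt, ht, hmul, hr, mul_one, show t5 * t5 = 1 by decide +kernel]
  have hnr : n * r * n⁻¹ = s := by
    rw [← hns]
    calc n * (n * s * n⁻¹) * n⁻¹ = (n * n) * s * (n * n)⁻¹ := by group
      _ = s := by rw [h.nn]; group
  have hnw : n * w * n⁻¹ = z := by rw [hw, hz]; exact h.n2
  have hnz : n * z * n⁻¹ = w := by rw [hw, hz]; exact h.n1
  have hnu : n * u * n⁻¹ = k := by
    rw [hu]
    calc n * (n * k * n⁻¹) * n⁻¹ = (n * n) * k * (n * n)⁻¹ := by group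
      _ = k := by rw [h.nn]; group
  -- conjugating commutation relations by n
  have cj : ∀ x y : G, x * y = y * x → (n * x * n⁻¹) * (n * y * n⁻¹) = (n * y * n⁻¹) * (n * x * n⁻¹) := by
    intro x y hxy
    calc (n * x * n⁻¹) * (n * y * n⁻¹) = n * (x * y) * n⁻¹ := by group
      _ = n * (y * x) * n⁻¹ := by rw [hxy]
      _ = _ := by group
  have huu : u * u = 1 := by
    rw [hu]
    calc n * k * n⁻¹ * (n * k * n⁻¹) = n * (k * k) * n⁻¹ := by group
      _ = 1 := by rw [hkk]; group
  have hks : k * s = s * k := by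
    rw [hk, hs, hmul, hmul, show k0 * s0 = s0 * k0 by decide +kernel]
  have hkr : k * r = r * k := by
    rw [hk, hr, hmul, hmul, one_mul, mul_one, one_mul, mul_one]
  have hkz : k * z = z * k := by
    rw [hk, hz, hmul, hmul, one_mul, mul_one, one_mul, mul_one]
  have hkt : k * t = t * s * k := by
    rw [hk, ht, hs, hmul, hmul, hmul, one_mul, one_mul,
      show k0 * t5 = t5 * s0 * k0 by decide +kernel]
  have hur : u * r = r * u := by
    have := cj k s hks
    rw [← hu, hns] at this; exact this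
  have hus : u * s = s * u := by
    have := cj k r hkr
    rw [← hu, hnr] at this; exact this
  have huw : u * w = w * u := by
    have := cj k z hkz
    rw [← hu, hnz] at this; exact this
  have hut : u * t = t * r * u := by
    have e1 : n * (k * t) * n⁻¹ = n * (t * s * k) * n⁻¹ := by rw [hkt]
    calc u * t = (n * k * n⁻¹) * (n * t * n⁻¹) := by rw [hnt, ← hu]
      _ = n * (k * t) * n⁻¹ := by group
      _ = n * (t * s * k) * n⁻¹ := by rw [hkt]
      _ = (n * t * n⁻¹) * (n * s * n⁻¹) * (n * k * n⁻¹) := by group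
      _ = t * r * u := by rw [hnt, hns, ← hu]
  have hst : s * t = t * s := by
    rw [hs, ht, hmul, hmul, show s0 * t5 = t5 * s0 by decide +kernel]
  have hrt : r * t = t * r := by
    rw [hr, ht, hmul, hmul, one_mul, mul_one, one_mul, mul_one]
  have hrs : r * s = s * r := by
    rw [hr, hs, hmul, hmul, one_mul, mul_one, one_mul, mul_one]
  have hrw : r * w = w * r := by
    rw [hr, hw, hmul, hmul, one_mul, mul_one, one_mul, mul_one]
  have hss : s * s = 1 := by
    rw [hs, hmul, show s0 * s0 = 1 by decide +kernel, one_mul, hone]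
  have hrr : r * r = 1 := by
    rw [hr, hmul, show (swap 0 1 : Perm (Fin 3)) * swap 0 1 = 1 by decide +kernel, one_mul, hone]
  -- conjugation actions
  have kti : k * t * k⁻¹ = t * s := by rw [hkt]; group
  have uti : u * t * u⁻¹ = t * r := by rw [hut]; group
  have ki : k⁻¹ = k := inv_eq_of_mul_eq_one_left hkk
  have ui : u⁻¹ = u := inv_eq_of_mul_eq_one_left huu
  -- the commutator
  obtain ⟨ε, hε⟩ : ∃ ε, ε = u * k * u⁻¹ * k⁻¹ := ⟨_, rfl⟩
  have hε2 : ε = (u * k) * (u * k) := by rw [hε, ui, ki]; group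
  have ukt : (u * k) * t = t * (r * s) * (u * k) := by
    calc (u * k) * t = u * (k * t) := by group
      _ = (u * t) * s * k := by rw [hkt]; group
      _ = t * r * (u * s) * k := by rw [hut]; group
      _ = t * (r * s) * (u * k) := by rw [hus]; group
  have uks : (u * k) * s = s * (u * k) := by
    rw [mul_assoc, hks, ← mul_assoc, hus, mul_assoc]
  have ukr : (u * k) * r = r * (u * k) := by
    rw [mul_assoc, hkr, ← mul_assoc, hur, mul_assoc]
  have ukrs : (u * k) * (r * s) = (r * s) * (u * k) := by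
    rw [← mul_assoc, ukr, mul_assoc, uks, mul_assoc]
  have hrs2 : (r * s) * (r * s) = 1 := by
    calc (r * s) * (r * s) = r * (s * r) * s := by group
      _ = (r * r) * (s * s) := by rw [← hrs]; group
      _ = 1 := by rw [hrr, hss, one_mul]
  have aux : ∀ c y : G, c * t = t * y * c → c * y = y * c → y * y = 1 → c * c * t = t * (c * c) := by
    intro c y h1 h2 h3
    calc c * c * t = c * (c * t) := by rw [mul_assoc]
      _ = c * (t * y * c) := by rw [h1]
      _ = (c * t) * (y * c) := by group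
      _ = (t * y * c) * (y * c) := by rw [h1]
      _ = t * y * (c * y) * c := by group
      _ = t * y * (y * c) * c := by rw [h2]
      _ = t * (y * y) * (c * c) := by group
      _ = t * (c * c) := by rw [h3, mul_one]
  have εt : ε * t = t * ε := by
    rw [hε2]
    exact aux (u * k) (r * s) ukt ukrs hrs2
  have εs : ε * s = s * ε := by
    rw [hε2, mul_assoc, uks, ← mul_assoc, uks, mul_assoc]
  have εr : ε * r = r * ε := by
    rw [hε2, mul_assoc, ukr, ← mul_assoc, ukr, mul_assoc]
  have εuk : ε * (u * k) = (u * k) * ε := by rw [hε2]; group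
  have nε : n * ε * n⁻¹ = ε⁻¹ := by
    rw [hε]
    calc n * (u * k * u⁻¹ * k⁻¹) * n⁻¹ =
        (n * u * n⁻¹) * (n * k * n⁻¹) * (n * u * n⁻¹)⁻¹ * (n * k * n⁻¹)⁻¹ := by group
      _ = k * u * k⁻¹ * u⁻¹ := by rw [hnu, ← hu]
      _ = _ := by group
  -- D
  have hrz : r * z * r⁻¹ = z⁻¹ := by
    have e1 : r * z = z⁻¹ * r := by
      have hzi : z⁻¹ = ψ (c3⁻¹, 1) := by rw [hz, ← map_inv, Prod.inv_mk, inv_one]
      rw [hzi, hr, hz, hmul, hmul,
        show (swap 0 1 : Perm (Fin 3)) * c3 = c3⁻¹ * swap 0 1 by decide +kernel]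
    rw [e1]; group
  have hzw : z * w = w * z := by
    rw [hz, hw, hmul, hmul, one_mul, mul_one, one_mul, mul_one]
  have hw3 : w ^ 3 = 1 := by
    rw [hw, ← map_pow, Prod.pow_mk, show d5 ^ 3 = 1 by decide +kernel, one_pow, hone]
  have hDD : ∀ x ∈ DD ψ, ∃ i j : ℤ, x = z ^ i * w ^ j := by
    have hc : Commute z w := hzw
    let M : Subgroup G :=
      { carrier := {x | ∃ i j : ℤ, x = z ^ i * w ^ j}
        one_mem' := ⟨0, 0, by simp⟩
        mul_mem' := by
          rintro x y ⟨i, j, rfl⟩ ⟨i', j', rfl⟩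
          refine ⟨i + i', j + j', ?_⟩
          have h1 : w ^ j * z ^ i' = z ^ i' * w ^ j := ((hc.zpow_zpow i' j)).symm
          calc z ^ i * w ^ j * (z ^ i' * w ^ j') = z ^ i * (w ^ j * z ^ i') * w ^ j' := by group
            _ = z ^ i * (z ^ i' * w ^ j) * w ^ j' := by rw [h1]
            _ = _ := by rw [zpow_add, zpow_add]; group
        inv_mem' := by
          rintro x ⟨i, j, rfl⟩
          refine ⟨-i, -j, ?_⟩
          have h1 : w ^ (-j) * z ^ (-i) = z ^ (-i) * w ^ (-j) := ((hc.zpow_zpow (-i) (-j))).symm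
          rw [mul_inv_rev, ← zpow_neg, ← zpow_neg, h1] }
    have hle : DD ψ ≤ M := by
      unfold DD
      apply sup_le
      · rw [zpowers_le]; exact ⟨1, 0, by simp [hz]⟩
      · rw [zpowers_le]; exact ⟨0, 1, by simp [hw]⟩
    intro x hx
    exact hle hx
  have hzD : z ∈ DD ψ := by
    rw [hz]; exact (le_sup_left : _ ≤ DD ψ) (mem_zpowers _)
  have hinvz : ∀ x ∈ DD ψ, r * x * r⁻¹ = x⁻¹ → x ∈ zpowers z := by
    intro x hx hrx
    obtain ⟨i, j, rfl⟩ := hDD x hx
    have e1 : r * (z ^ i * w ^ j) * r⁻¹ = z ^ (-i) * w ^ j := by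
      have hrw' : r * w * r⁻¹ = w := by rw [hrw]; group
      calc r * (z ^ i * w ^ j) * r⁻¹ = (r * z ^ i * r⁻¹) * (r * w ^ j * r⁻¹) := by group
        _ = (r * z * r⁻¹) ^ i * (r * w * r⁻¹) ^ j := by rw [conj_zpow, conj_zpow]
        _ = z ^ (-i) * w ^ j := by rw [hrz, hrw', inv_zpow, zpow_neg]
    have e2 : (z ^ i * w ^ j)⁻¹ = z ^ (-i) * w ^ (-j) := by
      have hc : Commute z w := hzw
      have h1 : w ^ (-j) * z ^ (-i) = z ^ (-i) * w ^ (-j) := ((hc.zpow_zpow (-i) (-j))).symm
      rw [mul_inv_rev, ← zpow_neg, ← zpow_neg, h1]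
    rw [e1, e2] at hrx
    have e3 : w ^ j = w ^ (-j) := mul_left_cancel hrx
    have e4 : w ^ j = 1 := by
      have h3 : (w ^ j) ^ 3 = 1 := by
        rw [← zpow_natCast, ← zpow_mul, mul_comm, zpow_mul, zpow_natCast, hw3, one_zpow]
      have h2 : w ^ j * w ^ j = 1 := by
        nth_rw 2 [e3]
        rw [← zpow_add, add_neg_cancel, zpow_zero]
      have h5 : (w ^ j) ^ 3 = w ^ j * w ^ j * w ^ j := by rw [pow_succ, pow_two]
      rw [h5, h2, one_mul] at h3
      exact h3
    rw [e4, mul_one]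
    exact ⟨i, rfl⟩
  have hrng : ∀ g : G, g * t = t * g → g * r = r * g → ∃ x, ψ x = g := by
    intro g hgt hgr
    have hgD : ∀ g : G, g * t = t * g → g * r = r * g → g * z * g⁻¹ ∈ zpowers z := by
      intro g hgt hgr
      have hgN := hN g (by rw [← ht]; exact hgt)
      have h1 : g * z * g⁻¹ ∈ DD ψ := (Subgroup.mem_normalizer_iff.mp hgN z).mp hzD
      apply hinvz _ h1
      have hgr' : r * g = g * r := hgr.symm
      have hgi : g⁻¹ * r⁻¹ = r⁻¹ * g⁻¹ := by
        rw [← mul_inv_rev, ← mul_inv_rev, hgr]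
      calc r * (g * z * g⁻¹) * r⁻¹ = (r * g) * z * (g⁻¹ * r⁻¹) := by group
        _ = g * (r * z * r⁻¹) * g⁻¹ := by rw [hgr', hgi]; group
        _ = (g * z * g⁻¹)⁻¹ := by rw [hrz]; group
    have h1 := hgD g hgt hgr
    have hgt' : g⁻¹ * t = t * g⁻¹ := by
      calc g⁻¹ * t = g⁻¹ * (t * g) * g⁻¹ := by group
        _ = t * g⁻¹ := by rw [← hgt]; group
    have hgr' : g⁻¹ * r = r * g⁻¹ := by
      calc g⁻¹ * r = g⁻¹ * (r * g) * g⁻¹ := by group
        _ = r * g⁻¹ := by rw [← hgr]; group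
    have h2 := hgD g⁻¹ hgt' hgr'
    have hconj : ∀ g : G, g * z * g⁻¹ ∈ zpowers z → ∀ x ∈ zpowers z, g * x * g⁻¹ ∈ zpowers z := by
      rintro g hg x ⟨i, rfl⟩
      change g * z ^ i * g⁻¹ ∈ zpowers z
      rw [← conj_zpow]
      exact zpow_mem hg i
    apply h.rng
    rw [← hz, Subgroup.mem_normalizer_iff]
    intro x
    constructor
    · exact hconj g h1 x
    · intro hx
      have := hconj _ h2 _ hx
      have e1 : g⁻¹ * (g * x * g⁻¹) * g⁻¹⁻¹ = x := by group
      rwa [e1] at this
  -- identify ε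
  have hε1 : ε = 1 := by
    obtain ⟨⟨p, q⟩, hpq⟩ := hrng ε εt εr
    have inj : ∀ {a c : Perm (Fin 3)} {b d : Perm (Fin 5)}, ψ (a, b) = ψ (c, d) → a = c ∧ b = d := by
      intro a c b d hh
      have := h.inj hh
      exact ⟨congrArg Prod.fst this, congrArg Prod.snd this⟩
    have hp : p * swap 0 1 = swap 0 1 * p := by
      have h1 := εr
      rw [← hpq, hr, hmul, hmul] at h1
      exact (inj h1).1
    have hqt : q * t5 = t5 * q := by
      have h1 := εt
      rw [← hpq, ht, hmul, hmul] at h1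
      exact (inj h1).2
    have hqs : q * s0 = s0 * q := by
      have h1 := εs
      rw [← hpq, hs, hmul, hmul] at h1
      exact (inj h1).2
    have hqe : q * swap 1 2 = swap 1 2 * q := by
      have e1 : (swap 1 2 : Perm (Fin 5)) = s0 * t5 := by decide +kernel
      rw [e1, ← mul_assoc, hqs, mul_assoc, hqt, mul_assoc]
    have hrsne : r * s ≠ 1 := by
      intro hc
      rw [hr, hs, hmul, ← hone] at hc
      have := (inj hc).1
      exact absurd this (by decide +kernel)
    have tcase : ∀ y : G, (u * k) * y = y * (u * k) → ε = t * y → False := by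
      intro y hy hεy
      have h1 := εuk
      rw [hεy] at h1
      have h2 : (u * k) * (t * y) = t * (r * s) * y * (u * k) := by
        rw [← mul_assoc, ukt, mul_assoc, hy, ← mul_assoc]
      rw [h2] at h1
      have h3 : t * y = t * (r * s) * y := mul_right_cancel h1
      apply hrsne
      have h4 : t * 1 * y = t * (r * s) * y := by rw [mul_one]; exact h3
      exact (mul_left_cancel (mul_right_cancel h4)).symm
    have hrsc : s ≠ r := by
      intro hc
      rw [hr, hs] at hc
      exact absurd (inj hc).1 (by decide +kernel)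
    rcases cent3 p hp with hp1 | hp1 <;> rcases cent0 q hqt hqs hqe with hq1 | hq1 | hq1 | hq1
    · rw [← hpq, hp1, hq1, hone]
    · exfalso
      have e1 : ε = s := by rw [← hpq, hp1, hq1, hs]
      rw [e1, hns] at nε
      have : s⁻¹ = s := inv_eq_of_mul_eq_one_left hss
      rw [this] at nε
      exact hrsc nε.symm
    · exfalso
      exact tcase 1 (by rw [mul_one, one_mul]) (by rw [← hpq, hp1, hq1, mul_one, ht])
    · exfalso
      refine tcase s uks ?_
      rw [← hpq, hp1, hq1, ht, hs, hmul, show (swap 1 2 : Perm (Fin 5)) = t5 * s0 by decide +kernel,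
        one_mul]
    · exfalso
      have e1 : ε = r := by rw [← hpq, hp1, hq1, hr]
      rw [e1, hnr] at nε
      have : r⁻¹ = r := inv_eq_of_mul_eq_one_left hrr
      rw [this] at nε
      exact hrsc nε
    · exfalso
      have e1 : ε = r * s := by rw [← hpq, hp1, hq1, hr, hs, hmul, mul_one, one_mul]
      -- u k u⁻¹ = r s k
      have h1 : u * k * u⁻¹ = r * s * k := by
        rw [← e1, hε]; group
      have h2 : (w * k) ^ 5 = 1 := by
        rw [hw, hk, hmul, one_mul, ← map_pow, Prod.pow_mk, one_pow,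
          show (d5 * k0) ^ 5 = 1 by decide +kernel, hone]
      have h3 : u * (w * k) * u⁻¹ = r * (w * s * k) := by
        calc u * (w * k) * u⁻¹ = (u * w) * u⁻¹ * (u * k * u⁻¹) := by group
          _ = w * (r * s * k) := by rw [huw, h1]; group
          _ = (w * r) * s * k := by group
          _ = r * (w * s * k) := by rw [← hrw]; group
      have h4 : (r * (w * s * k)) ^ 5 = 1 := by
        rw [← h3, conj_pow, h2]; group
      have hcomm : Commute r (w * s * k) := by
        have c1 : Commute r w := hrw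
        have c2 : Commute r s := hrs
        have c3' : Commute r k := hkr.symm
        exact (c1.mul_right c2).mul_right c3'
      rw [hcomm.mul_pow] at h4
      have h5 : r ^ 5 = r := by
        have h51 : r ^ 5 = r ^ 2 * r ^ 2 * r := by
          rw [← pow_add, ← pow_succ]
        rw [h51, pow_two, hrr, one_mul, one_mul]
      rw [h5] at h4
      have h6 : (w * s * k) ^ 5 = ψ (1, (d5 * s0 * k0) ^ 5) := by
        rw [hw, hs, hk, hmul, hmul, ← map_pow, Prod.pow_mk, one_mul, one_mul, one_pow]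
      rw [h6, hr, hmul, ← hone] at h4
      have := (inj h4).1
      rw [mul_one] at this
      exact absurd this (by decide +kernel)
    · exfalso
      refine tcase r ukr ?_
      rw [← hpq, hp1, hq1, ht, hr, hmul, one_mul, mul_one]
    · exfalso
      refine tcase (r * s) ukrs ?_
      rw [← hpq, hp1, hq1, ht, hr, hs, hmul, hmul, one_mul, mul_one, one_mul,
        show (swap 1 2 : Perm (Fin 5)) = t5 * s0 by decide +kernel]
  have huk : u * k = k * u := by
    rw [hε] at hε1
    calc u * k = (u * k * u⁻¹ * k⁻¹) * k * u := by group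
      _ = k * u := by rw [hε1, one_mul]
  -- u commutes with ψ (1, a)
  have hucom : ∀ a : Perm (Fin 5), Perm.sign a = 1 → u * ψ (1, a) = ψ (1, a) * u := by
    intro a ha
    have hA := gen ((centralizer ({u} : Set G)).comap (ψ.comp (MonoidHom.inr (Perm (Fin 3)) (Perm (Fin 5)))))
      (by
        rw [Subgroup.mem_comap]
        refine Subgroup.mem_centralizer_iff.2 ?_
        intro y hy
        rw [Set.mem_singleton_iff] at hy
        rw [hy]
        change u * ψ (1, k0) = ψ (1, k0) * u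
        rw [← hk]; exact huk)
      (by
        rw [Subgroup.mem_comap]
        refine Subgroup.mem_centralizer_iff.2 ?_
        intro y hy
        rw [Set.mem_singleton_iff] at hy
        rw [hy]
        change u * ψ (1, d5) = ψ (1, d5) * u
        rw [← hw]; exact huw)
      (by
        rw [Subgroup.mem_comap]
        refine Subgroup.mem_centralizer_iff.2 ?_
        intro y hy
        rw [Set.mem_singleton_iff] at hy
        rw [hy]
        change u * ψ (1, s0) = ψ (1, s0) * u
        rw [← hs]; exact hus) a ha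
    exact Subgroup.mem_centralizer_iff.mp hA u rfl
  intro a b ha hb
  have hB := gen ((centralizer ({ψ (1, a)} : Set G)).comap
      ((MulAut.conj n).toMonoidHom.comp (ψ.comp (MonoidHom.inr (Perm (Fin 3)) (Perm (Fin 5))))))
      (by
        rw [Subgroup.mem_comap]
        refine Subgroup.mem_centralizer_iff.2 ?_
        intro y hy
        rw [Set.mem_singleton_iff] at hy
        rw [hy]
        change ψ (1, a) * (n * ψ (1, k0) * n⁻¹) = (n * ψ (1, k0) * n⁻¹) * ψ (1, a)
        rw [← hk, ← hu]; exact (hucom a ha).symm)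
      (by
        rw [Subgroup.mem_comap]
        refine Subgroup.mem_centralizer_iff.2 ?_
        intro y hy
        rw [Set.mem_singleton_iff] at hy
        rw [hy]
        change ψ (1, a) * (n * ψ (1, d5) * n⁻¹) = (n * ψ (1, d5) * n⁻¹) * ψ (1, a)
        rw [← hw, hnw, hz, hmul, hmul, one_mul, mul_one, one_mul, mul_one])
      (by
        rw [Subgroup.mem_comap]
        refine Subgroup.mem_centralizer_iff.2 ?_
        intro y hy
        rw [Set.mem_singleton_iff] at hy
        rw [hy]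
        change ψ (1, a) * (n * ψ (1, s0) * n⁻¹) = (n * ψ (1, s0) * n⁻¹) * ψ (1, a)
        rw [← hs, hns, hr, hmul, hmul, one_mul, mul_one, one_mul, mul_one]) b hb
  exact Subgroup.mem_centralizer_iff.mp hB _ rfl

end H1.RT1
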